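import Mathlib
import Cfsg.Agent.S0887
import Cfsg.Agent.S4456
import Cfsg.Agent.S4458
import Cfsg.Agent.S0176
import Cfsg.Agent.Lib.Degree.Inflate
import Cfsg.Agent.Lib.Degree.FSMore
import Cfsg.Agent.Lib.Block.Cover
import Cfsg.Agent.Lib.Coprime.TaketaStep
import Cfsg.Agent.Lib.Char.Monomial
import Cfsg.Agent.Lib.Char.Thompson

/-!
# Groups with three character degrees: basic reductions
-/

set_option autoImplicit false
set_option linter.unusedSectionVars false
set_option linter.unusedVariables false
set_option linter.unusedSimpArgs false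

open Cfsg Cfsg.Agent.Lib.Char
open scoped commutatorElement

namespace Cfsg.Agent.Lib.Deg3

universe u

variable {G : Type u} [Group G] [Finite G]

/-- Two degrees give metabelian groups. -/
theorem derived_two_of_two_deg (m : ℕ)
    (h : ∀ χ : IrrCharacter G, charDegree (χ : G → ℂ) = 1 ∨ charDegree (χ : G → ℂ) = m) :
    derivedSeries G 2 = ⊥ := by
  classical
  by_cases hm : (∃ χ : IrrCharacter G, charDegree (χ : G → ℂ) = m) ∧ m ≠ 1
  · obtain ⟨hm, hm1⟩ := hm
    have h1 := Cfsg.Agent.S4458.result m h hm hm1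
    rw [eq_bot_iff, show derivedSeries G 2 = ⁅derivedSeries G 1, derivedSeries G 1⁆ from rfl,
      Subgroup.commutator_le]
    intro a ha b hb
    rw [Subgroup.mem_bot, commutatorElement_eq_one_iff_mul_comm]
    exact h1 a ha b hb
  · have hall : ∀ χ : IrrCharacter G, (χ : G → ℂ) 1 = 1 := by
      intro χ
      have h2 : charDegree (χ : G → ℂ) = 1 := by
        rcases h χ with h2 | h2
        · exact h2
        · by_contra h3
          apply hm
          refine ⟨⟨χ, h2⟩, ?_⟩
          rw [← h2]
          exact h3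
      rw [map_one_eq_charDegree (IsIrrCharacter.isCharacter χ.2), h2]
      simp
    have hc := comm_iff_forall_irr_degree_one.mpr hall
    rw [eq_bot_iff, show derivedSeries G 2 = ⁅derivedSeries G 1, derivedSeries G 1⁆ from rfl,
      Subgroup.commutator_le]
    intro a ha b hb
    rw [Subgroup.mem_bot, commutatorElement_eq_one_iff_mul_comm]
    exact hc a b

/-- Inflation preserves degrees. -/
theorem charDegree_inflate (N : Subgroup G) [N.Normal] (ψ : IrrCharacter (G ⧸ N)) :
    charDegree ((Degree.inflate N ψ : IrrCharacter G) : G → ℂ) = charDegree (ψ : G ⧸ N → ℂ) :=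
  charDegree_comp_monoidHom (QuotientGroup.mk' N) _

/-- The derived series of a quotient. -/
theorem derived_le_of_quot (N : Subgroup G) [N.Normal] (k : ℕ)
    (h : derivedSeries (G ⧸ N) k = ⊥) : derivedSeries G k ≤ N := by
  have h1 := map_derivedSeries_eq (f := QuotientGroup.mk' N) (QuotientGroup.mk'_surjective N) k
  rw [h] at h1
  intro g hg
  have h2 : QuotientGroup.mk' N g ∈ (derivedSeries G k).map (QuotientGroup.mk' N) :=
    Subgroup.mem_map_of_mem _ hg
  rw [h1, Subgroup.mem_bot] at h2
  exact (QuotientGroup.eq_one_iff g).mp h2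

/-- Comparing derived series with that of a subgroup. -/
theorem derived_add_le (A : Subgroup G) (k j : ℕ)
    (h : derivedSeries G k ≤ (derivedSeries A j).map A.subtype) (i : ℕ) :
    derivedSeries G (k + i) ≤ (derivedSeries A (j + i)).map A.subtype := by
  induction i with
  | zero => simpa using h
  | succ i ih =>
    rw [← add_assoc, ← add_assoc, derivedSeries_succ, derivedSeries_succ, Subgroup.map_commutator]
    exact Subgroup.commutator_mono ih ih

/-- Abelian from all linear. -/
theorem derived_one_of_all_linear (h : ∀ χ : IrrCharacter G, charDegree (χ : G → ℂ) = 1) :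
    derivedSeries G 1 = ⊥ := by
  have hall : ∀ χ : IrrCharacter G, (χ : G → ℂ) 1 = 1 := by
    intro χ
    rw [map_one_eq_charDegree (IsIrrCharacter.isCharacter χ.2), h χ]
    simp
  have hc := comm_iff_forall_irr_degree_one.mpr hall
  rw [eq_bot_iff, show derivedSeries G 1 = ⁅derivedSeries G 0, derivedSeries G 0⁆ from rfl,
    Subgroup.commutator_le]
  intro a ha b hb
  rw [Subgroup.mem_bot, commutatorElement_eq_one_iff_mul_comm]
  exact hc a b

/-- The commutator subgroup of `A`, in `G`. -/
def cmt (A : Subgroup G) : Subgroup G := (commutator A).map A.subtype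

instance cmt_normal (A : Subgroup G) [hA : A.Normal] : (cmt A).Normal := by
  refine ⟨fun n hn g => ?_⟩
  obtain ⟨x, hx, rfl⟩ := hn
  let f : A ≃* A := MulAut.conjNormal g
  have h1 : f x ∈ commutator A := by
    have hc : (commutator A).Characteristic := inferInstance
    have := (Subgroup.characteristic_iff_map_le.mp hc f)
    exact this (Subgroup.mem_map_of_mem _ hx)
  refine ⟨f x, h1, ?_⟩
  simp [f, MulAut.conjNormal_apply]

/-- A constituent on `A` of a character with `A'` in the kernel is linear. -/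
theorem constituent_linear (A : Subgroup G) [A.Normal] (χ : IrrCharacter G) (θ : IrrCharacter A)
    [Fintype A]
    (hker : Degree.KerContains (cmt A) (χ : G → ℂ))
    (hθ : classInner (fun n : A => (χ : G → ℂ) n) (θ : A → ℂ) ≠ 0) :
    charDegree (θ : A → ℂ) = 1 := by
  have hres := IsCharacter.restrict A (IsIrrCharacter.isCharacter χ.2)
  have h1 : Degree.KerContains (commutator A) (θ : A → ℂ) := by
    intro n hn
    refine Degree.map_eq_of_constituent hres θ.2 hθ ?_
    have h2 := hker n (Subgroup.mem_map_of_mem _ hn)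
    simpa using h2
  obtain ⟨ψ, rfl⟩ := Degree.exists_inflate (commutator A) h1
  rw [charDegree_inflate]
  have hc : ∀ a b : A ⧸ commutator A, a * b = b * a := by
    intro a b
    obtain ⟨x, rfl⟩ := QuotientGroup.mk_surjective a
    obtain ⟨y, rfl⟩ := QuotientGroup.mk_surjective b
    rw [← QuotientGroup.mk_mul, ← QuotientGroup.mk_mul, QuotientGroup.eq]
    have h3 : (x * y)⁻¹ * (y * x) = ⁅y⁻¹, x⁻¹⁆ := by
      simp [commutatorElement_def, mul_assoc]
    rw [h3]
    exact Subgroup.commutator_mem_commutator (Subgroup.mem_top _) (Subgroup.mem_top _)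
  have h2 := charDegree_eq_one_of_comm hc ψ.2
  rw [charDegree_natCast (n := 1) (by simpa using h2)]

/-- Degrees above and below a normal Hall complement. -/
theorem degree_relation (r : ℕ) (hr : r.Prime) (A : Subgroup G) [hA : A.Normal] [Fintype G] [Fintype A]
    (hcop : (Nat.card A).Coprime r) {k : ℕ} (hk : A.index = r ^ k)
    (χ : IrrCharacter G) (θ : IrrCharacter A)
    (hθ : classInner (fun n : A => (χ : G → ℂ) n) (θ : A → ℂ) ≠ 0) :
    ∃ i : ℕ, charDegree (χ : G → ℂ) = r ^ i * charDegree (θ : A → ℂ) ∧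
      (charDegree (θ : A → ℂ)).Coprime r := by
  have hχ1 := map_one_eq_charDegree (IsIrrCharacter.isCharacter χ.2)
  have hθ1 := map_one_eq_charDegree (IsIrrCharacter.isCharacter θ.2)
  have h := Cfsg.Agent.S0887.result A (χ : G → ℂ) χ.2 (θ : A → ℂ) θ.2 hθ _ _ hχ1 hθ1
  obtain ⟨h1, h2⟩ := h
  rw [hk] at h2
  obtain ⟨i, -, hi⟩ := (Nat.dvd_prime_pow hr).mp h2
  refine ⟨i, ?_, ?_⟩
  · rw [← hi, Nat.div_mul_cancel h1]
  · exact Nat.Coprime.coprime_dvd_left (charDegree_dvd_card θ.2) hcop

/-- Every irreducible character of a normal subgroup lies under one of the group. -/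
theorem exists_above (A : Subgroup G) [hA : A.Normal] [Fintype G] [Fintype A] (θ : IrrCharacter A) :
    ∃ χ : IrrCharacter G, classInner (fun n : A => (χ : G → ℂ) n) (θ : A → ℂ) ≠ 0 := by
  classical
  have hϑc := IsIrrCharacter.isCharacter θ.2
  have hind := indFun_isCharacter A hϑc
  have hne : indFun A (θ : A → ℂ) ≠ 0 := by
    intro h0
    have h1 := congrFun h0 1
    rw [indFun_one] at h1
    simp only [Pi.zero_apply, mul_eq_zero, Nat.cast_eq_zero] at h1
    rcases h1 with h1 | h1
    · exact Subgroup.index_ne_zero_of_finite h1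
    · exact map_one_ne_zero_of_irr θ.2 h1
  obtain ⟨χ, hχ, hcon⟩ := exists_constituent hind hne
  have hχc := IsIrrCharacter.isCharacter hχ
  refine ⟨⟨χ, hχ⟩, ?_⟩
  intro h
  apply hcon
  rw [frobenius_reciprocity A _ χ (IsCharacter.isClassFunction hχc), ← conj_classInner]
  change (starRingEnd ℂ) (classInner (fun n : A => χ n) (θ : A → ℂ)) = 0
  rw [show classInner (fun n : A => χ n) (θ : A → ℂ) = 0 from h]
  simp

/-- Normal subgroup with abelian normal `r`-power index: all characters monomial. -/
theorem monomial_of_abelian_normal (r : ℕ) (hr : r.Prime) :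
    ∀ (H : Type u) [Group H] [Fintype H],
      (∃ A : Subgroup H, A.Normal ∧ (∀ a ∈ A, ∀ b ∈ A, a * b = b * a) ∧ ∃ k, A.index = r ^ k) →
      ∀ χ : H → ℂ, IsIrrCharacter H χ → IsMonomialFn χ := by
  intro H _ _ hM χ hχ
  refine monomial_of_imprimitive
    (fun H _ => ∃ A : Subgroup H, A.Normal ∧ (∀ a ∈ A, ∀ b ∈ A, a * b = b * a) ∧ ∃ k, A.index = r ^ k)
    ?_ ?_ _ H rfl hM χ hχ
  · rintro H _ T ⟨A, hAn, hAc, k, hk⟩
    haveI := hAn
    refine ⟨A.subgroupOf T, inferInstance, ?_, ?_⟩
    · intro a ha b hb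
      rw [Subgroup.mem_subgroupOf] at ha hb
      exact Subtype.ext (hAc _ ha _ hb)
    · have h1 : (A.subgroupOf T).index ∣ r ^ k := by
        rw [← hk]
        exact A.relIndex_dvd_index_of_normal T
      obtain ⟨i, -, hi⟩ := (Nat.dvd_prime_pow hr).mp h1
      exact ⟨i, hi⟩
  · rintro H _ _ ⟨A, hAn, hAc, k, hk⟩ χ hχ h1
    obtain ⟨n, ρ, hρ, rfl⟩ := hχ
    by_cases hs : ∀ a ∈ A, a ∈ scalarSubgroup ρ
    · refine imprimitive_of_quotient_nilpotent ρ hρ ?_ ?_
      · intro hn
        apply h1
        rw [Representation.char_one, hn]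
        simp
      · haveI := scalarSubgroup_normal ρ
        haveI : Fact r.Prime := ⟨hr⟩
        have h2 : Nat.card (H ⧸ scalarSubgroup ρ) ∣ r ^ k := by
          rw [← hk, ← Subgroup.index_eq_card]
          exact Subgroup.index_dvd_of_le hs
        obtain ⟨i, -, hi⟩ := (Nat.dvd_prime_pow hr).mp h2
        exact IsPGroup.isNilpotent (IsPGroup.of_card hi)
    · push Not at hs
      obtain ⟨a, haA, ha⟩ := hs
      refine imprimitive_of_normal_comm ρ hρ A hAn ?_ a haA ha
      intro x hx y hy
      rw [hAc x hx y hy]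

end Cfsg.Agent.Lib.Deg3
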