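import Cfsg.Agent.Lib.Deg3.Just

/-!
# Three character degrees: the structure of a just non-abelian group with trivial centre
-/

set_option autoImplicit false
set_option linter.unusedSectionVars false
set_option linter.unusedVariables false
set_option linter.unusedSimpArgs false

open Cfsg Cfsg.Agent.Lib.Char
open scoped commutatorElement ComplexConjugate

namespace Cfsg.Agent.Lib.Deg3

universe u

variable {Γ : Type u} [Group Γ] [Finite Γ]

theorem cen_normal (hab : ∀ a ∈ commutator Γ, ∀ b ∈ commutator Γ, a * b = b * a) (x : Γ) :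
    (commutator Γ ⊓ Subgroup.centralizer {x}).Normal := by
  refine ⟨fun d hd g => ?_⟩
  obtain ⟨hd1, hd2⟩ := Subgroup.mem_inf.mp hd
  rw [Subgroup.mem_centralizer_singleton_iff] at hd2
  refine Subgroup.mem_inf.mpr ⟨(inferInstance : (commutator Γ).Normal).conj_mem d hd1 g, ?_⟩
  rw [Subgroup.mem_centralizer_singleton_iff]
  set e : Γ := g⁻¹ * x * g * x⁻¹ with he
  have he1 : e ∈ commutator Γ := by
    have h1 : e = ⁅g⁻¹, x⁆ := by simp [commutatorElement_def, he]
    rw [h1]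
    exact Subgroup.commutator_mem_commutator (Subgroup.mem_top _) (Subgroup.mem_top _)
  have h2 : e * x = g⁻¹ * x * g := by simp [he]
  have h3 : d * e = e * d := hab d hd1 e he1
  calc g * d * g⁻¹ * x = g * d * (g⁻¹ * x * g) * g⁻¹ := by group
    _ = g * (d * e) * x * g⁻¹ := by rw [← h2]; group
    _ = g * e * (d * x) * g⁻¹ := by rw [h3]; group
    _ = g * (e * x) * d * g⁻¹ := by rw [hd2]; group
    _ = x * (g * d * g⁻¹) := by rw [h2]; group

/-- The centralizer in the commutator subgroup of an element is trivial or everything. -/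
theorem cen_dich (hJ : JustNonAb Γ) (hab : ∀ a ∈ commutator Γ, ∀ b ∈ commutator Γ, a * b = b * a)
    (x : Γ) :
    (∀ d ∈ commutator Γ, d * x = x * d → d = 1) ∨ (∀ d ∈ commutator Γ, d * x = x * d) := by
  by_cases h0 : commutator Γ ⊓ Subgroup.centralizer {x} = ⊥
  · left
    intro d hd hdx
    have h1 : d ∈ commutator Γ ⊓ Subgroup.centralizer {x} :=
      Subgroup.mem_inf.mpr ⟨hd, Subgroup.mem_centralizer_singleton_iff.mpr hdx⟩
    rw [h0, Subgroup.mem_bot] at h1
    exact h1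
  · right
    intro d hd
    have h1 := hJ.le _ (cen_normal hab x) h0 hd
    exact Subgroup.mem_centralizer_singleton_iff.mp (Subgroup.mem_inf.mp h1).2

theorem frob_surj {x : Γ} (hx : ∀ d ∈ commutator Γ, d * x = x * d → d = 1) (c : Γ)
    (hc : c ∈ commutator Γ) : ∃ d ∈ commutator Γ, x * d * x⁻¹ * d⁻¹ = c := by
  have hDn : (commutator Γ).Normal := inferInstance
  let f : commutator Γ → commutator Γ := fun d =>
    ⟨x * d * x⁻¹ * (d : Γ)⁻¹, (commutator Γ).mul_mem (hDn.conj_mem d d.2 x) ((commutator Γ).inv_mem d.2)⟩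
  have hinj : Function.Injective f := by
    intro d₁ d₂ h
    have h1 : x * (d₁ : Γ) * x⁻¹ * (d₁ : Γ)⁻¹ = x * (d₂ : Γ) * x⁻¹ * (d₂ : Γ)⁻¹ :=
      congrArg Subtype.val h
    have h2 : x * (d₁ : Γ) * x⁻¹ = x * (d₂ : Γ) * x⁻¹ * ((d₂ : Γ)⁻¹ * d₁) := by
      calc x * (d₁ : Γ) * x⁻¹ = x * (d₁ : Γ) * x⁻¹ * (d₁ : Γ)⁻¹ * d₁ := by group
        _ = x * (d₂ : Γ) * x⁻¹ * (d₂ : Γ)⁻¹ * d₁ := by rw [h1]
        _ = _ := by group
    have h3 : ((d₂ : Γ)⁻¹ * d₁) * x = x * ((d₂ : Γ)⁻¹ * d₁) := by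
      have h4 : x * ((d₂ : Γ)⁻¹ * d₁) * x⁻¹ = (d₂ : Γ)⁻¹ * d₁ := by
        calc x * ((d₂ : Γ)⁻¹ * d₁) * x⁻¹ = (x * (d₂ : Γ) * x⁻¹)⁻¹ * (x * (d₁ : Γ) * x⁻¹) := by group
          _ = _ := by rw [h2]; group
      rw [← h4]
      simp [mul_assoc]
      rw [← mul_assoc x, ← h4]
      simp [mul_assoc]
    have h5 := hx _ ((commutator Γ).mul_mem ((commutator Γ).inv_mem d₂.2) d₁.2) h3
    apply Subtype.ext
    have h6 : (d₁ : Γ) = d₂ := by
      rw [inv_mul_eq_one] at h5
      exact h5.symm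
    exact h6
  obtain ⟨d, hd⟩ := (Finite.injective_iff_surjective.mp hinj) ⟨c, hc⟩
  exact ⟨d, d.2, congrArg Subtype.val hd⟩

theorem frob_decomp {x : Γ} (hx : ∀ d ∈ commutator Γ, d * x = x * d → d = 1) (g : Γ) :
    ∃ d ∈ commutator Γ, (d⁻¹ * g) * x = x * (d⁻¹ * g) := by
  have h0 : x * g * x⁻¹ * g⁻¹ ∈ commutator Γ := by
    have h1 : x * g * x⁻¹ * g⁻¹ = ⁅x, g⁆ := rfl
    rw [h1]
    exact Subgroup.commutator_mem_commutator (Subgroup.mem_top _) (Subgroup.mem_top _)
  obtain ⟨d, hd, h1⟩ := frob_surj hx _ h0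
  refine ⟨d, hd, ?_⟩
  have h2 : d * x⁻¹ * d⁻¹ = g * x⁻¹ * g⁻¹ := by
    have h3 : x * (d * x⁻¹ * d⁻¹) = x * (g * x⁻¹ * g⁻¹) := by
      calc x * (d * x⁻¹ * d⁻¹) = x * d * x⁻¹ * d⁻¹ := by group
        _ = x * g * x⁻¹ * g⁻¹ := h1
        _ = _ := by group
    exact mul_left_cancel h3
  have h4 : x⁻¹ = (d⁻¹ * g) * x⁻¹ * (d⁻¹ * g)⁻¹ := by
    calc x⁻¹ = d⁻¹ * (d * x⁻¹ * d⁻¹) * d := by group
      _ = d⁻¹ * (g * x⁻¹ * g⁻¹) * d := by rw [h2]
      _ = _ := by group
  have h5 : x = (d⁻¹ * g) * x * (d⁻¹ * g)⁻¹ := by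
    have := congrArg (fun y => y⁻¹) h4
    simpa [mul_assoc] using this
  calc (d⁻¹ * g) * x = (d⁻¹ * g) * x * (d⁻¹ * g)⁻¹ * (d⁻¹ * g) := by group
    _ = x * (d⁻¹ * g) := by rw [← h5]

/-- The commutator subgroup is its own centralizer. -/
theorem frob_centralizer (hJ : JustNonAb Γ) (hZ : Subgroup.center Γ = ⊥)
    (hab : ∀ a ∈ commutator Γ, ∀ b ∈ commutator Γ, a * b = b * a) (z : Γ)
    (hz : ∀ d ∈ commutator Γ, d * z = z * d) : z ∈ commutator Γ := by
  -- a noncentral element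
  have hD0 : commutator Γ ≠ ⊥ := by
    intro h
    apply hJ.not_comm
    intro a b
    have h1 : ⁅a, b⁆ ∈ commutator Γ :=
      Subgroup.commutator_mem_commutator (Subgroup.mem_top _) (Subgroup.mem_top _)
    rw [h, Subgroup.mem_bot, commutatorElement_eq_one_iff_mul_comm] at h1
    exact h1
  obtain ⟨⟨d₀, hd₀⟩, hd₀1⟩ := Subgroup.ne_bot_iff_exists_ne_one.mp hD0
  have hd₀1' : d₀ ≠ 1 := fun h => hd₀1 (Subtype.ext h)
  have hnc : d₀ ∉ Subgroup.center Γ := by
    rw [hZ, Subgroup.mem_bot]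
    exact hd₀1'
  rw [Subgroup.mem_center_iff] at hnc
  push Not at hnc
  obtain ⟨x, hxd⟩ := hnc
  have hx : ∀ d ∈ commutator Γ, d * x = x * d → d = 1 := by
    rcases cen_dich hJ hab x with h | h
    · exact h
    · exact absurd (h d₀ hd₀).symm hxd
  obtain ⟨d₁, hd₁, h1⟩ := frob_decomp hx z
  have hcD : ∀ d ∈ commutator Γ, d * (d₁⁻¹ * z) = (d₁⁻¹ * z) * d := by
    intro d hd
    have h2 : d * d₁⁻¹ = d₁⁻¹ * d := hab d hd _ ((commutator Γ).inv_mem hd₁)
    calc d * (d₁⁻¹ * z) = (d * d₁⁻¹) * z := by group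
      _ = d₁⁻¹ * (d * z) := by rw [h2]; group
      _ = (d₁⁻¹ * z) * d := by rw [hz d hd]; group
  have hcentral : d₁⁻¹ * z ∈ Subgroup.center Γ := by
    rw [Subgroup.mem_center_iff]
    intro g
    obtain ⟨d, hd, hk⟩ := frob_decomp hx g
    have hkx : Commute (d⁻¹ * g) x := hk
    have hhx : Commute (d₁⁻¹ * z) x := h1
    have hc : Commute (⁅d⁻¹ * g, d₁⁻¹ * z⁆) x :=
      ((hkx.mul_left hhx).mul_left hkx.inv_left).mul_left hhx.inv_left
    have hm : ⁅d⁻¹ * g, d₁⁻¹ * z⁆ ∈ commutator Γ :=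
      Subgroup.commutator_mem_commutator (Subgroup.mem_top _) (Subgroup.mem_top _)
    have h3 := hx _ hm hc
    rw [commutatorElement_eq_one_iff_mul_comm] at h3
    calc g * (d₁⁻¹ * z) = d * ((d⁻¹ * g) * (d₁⁻¹ * z)) := by group
      _ = d * ((d₁⁻¹ * z) * (d⁻¹ * g)) := by rw [h3]
      _ = (d * (d₁⁻¹ * z)) * (d⁻¹ * g) := by group
      _ = ((d₁⁻¹ * z) * d) * (d⁻¹ * g) := by rw [hcD d hd]
      _ = (d₁⁻¹ * z) * g := by group
  rw [hZ, Subgroup.mem_bot, inv_mul_eq_one] at hcentral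
  rw [← hcentral]
  exact hd₁

/-- Elements outside act without fixed points. -/
theorem frob_fpf (hJ : JustNonAb Γ) (hZ : Subgroup.center Γ = ⊥)
    (hab : ∀ a ∈ commutator Γ, ∀ b ∈ commutator Γ, a * b = b * a) {x : Γ} (hx : x ∉ commutator Γ) :
    ∀ d ∈ commutator Γ, d * x = x * d → d = 1 := by
  rcases cen_dich hJ hab x with h | h
  · exact h
  · exact absurd (frob_centralizer hJ hZ hab x h) hx

/-- Index and coprimality. -/
theorem frob_index (hJ : JustNonAb Γ) (hZ : Subgroup.center Γ = ⊥)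
    (hab : ∀ a ∈ commutator Γ, ∀ b ∈ commutator Γ, a * b = b * a) {m : ℕ} (hm0 : m ≠ 0)
    (hcd : ∀ χ : IrrCharacter Γ, charDegree (χ : Γ → ℂ) = 1 ∨ charDegree (χ : Γ → ℂ) = m) :
    (commutator Γ).index = m ∧ Nat.Coprime (commutator Γ).index (Nat.card (commutator Γ)) := by
  classical
  obtain ⟨O, hO, habO, hcop, hnil⟩ := Coprime.exists_hall_abelian hcd
  haveI := hO
  haveI := hnil
  have hD0 : (Γ ⧸ O) = (Γ ⧸ O) := rfl
  have hO0 : O ≠ ⊥ := by
    intro h0
    subst h0
    haveI hn : Group.IsNilpotent Γ :=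
      Group.nilpotent_of_surjective (QuotientGroup.quotientBot (G := Γ)).toMonoidHom
        (QuotientGroup.quotientBot (G := Γ)).surjective
    haveI hnt : Nontrivial Γ := by
      by_contra hnt
      rw [not_nontrivial_iff_subsingleton] at hnt
      exact hJ.not_comm fun a b => Subsingleton.elim _ _
    exact Group.IsNilpotent.center_ne_bot Γ hZ
  have h1 : commutator Γ ≤ O := hJ.le O hO hO0
  have h2 : O ≤ commutator Γ := by
    intro z hz
    refine frob_centralizer hJ hZ hab z fun d hd => habO d (h1 hd) z hz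
  have h3 : O = commutator Γ := le_antisymm h2 h1
  subst h3
  refine ⟨?_, hcop⟩
  have hcen : Subgroup.centralizer ((commutator Γ : Subgroup Γ) : Set Γ) = commutator Γ := by
    apply le_antisymm
    · intro z hz
      refine frob_centralizer hJ hZ hab z fun d hd => ?_
      exact (Subgroup.mem_centralizer_iff.mp hz) d hd
    · intro z hz
      rw [Subgroup.mem_centralizer_iff]
      intro d hd
      exact hab d hd z hz
  have hne : Subgroup.centralizer ((commutator Γ : Subgroup Γ) : Set Γ) ≠ ⊤ := by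
    rw [hcen]
    intro htop
    apply hJ.not_comm
    intro a b
    exact hab a (by rw [htop]; trivial) b (by rw [htop]; trivial)
  have h4 := (Coprime.two_deg_core hO habO hcop hnil hm0 hcd hne).1
  rwa [hcen] at h4

/-- The quotient by the commutator subgroup is cyclic. -/
theorem frob_cyclic (hJ : JustNonAb Γ) (hZ : Subgroup.center Γ = ⊥)
    (hab : ∀ a ∈ commutator Γ, ∀ b ∈ commutator Γ, a * b = b * a) :
    ∃ g₀ : Γ, ∀ i : ℕ, 0 < i → i < (commutator Γ).index → g₀ ^ i ∉ commutator Γ := by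
  classical
  haveI hDn : (commutator Γ).Normal := inferInstance
  have hVcomm : ∀ a b : commutator Γ, a * b = b * a := fun a b => Subtype.ext (hab a a.2 b b.2)
  let ψ : Γ →* MulAut (commutator Γ) := MulAut.conjNormal
  have hψ : ∀ (g : Γ) (d : commutator Γ), ((ψ g d : commutator Γ) : Γ) = g * d * g⁻¹ := by
    intro g d
    exact MulAut.conjNormal_apply g d
  have hker : ∀ g, ψ g = 1 ↔ g ∈ commutator Γ := by
    intro g
    constructor
    · intro h
      refine frob_centralizer hJ hZ hab g fun d hd => ?_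
      have h1 := hψ g ⟨d, hd⟩
      rw [h] at h1
      have h2 : d = g * d * g⁻¹ := h1
      calc d * g = g * d * g⁻¹ * g := by rw [← h2]
        _ = g * d := by group
    · intro h
      ext d
      rw [hψ]
      have h1 := hab g h d d.2
      rw [h1]
      simp
  have hD0 : commutator Γ ≠ ⊥ := by
    intro h
    apply hJ.not_comm
    intro a b
    have h1 : ⁅a, b⁆ ∈ commutator Γ :=
      Subgroup.commutator_mem_commutator (Subgroup.mem_top _) (Subgroup.mem_top _)
    rw [h, Subgroup.mem_bot, commutatorElement_eq_one_iff_mul_comm] at h1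
    exact h1
  letI : CommGroup (commutator Γ) := { (inferInstance : Group (commutator Γ)) with mul_comm := hVcomm }
  haveI : Nontrivial (commutator Γ) := (Subgroup.nontrivial_iff_ne_bot _).mpr hD0
  have hcyc : IsCyclic ψ.range := by
    apply PGroup.AbelianAct.isCyclic_of_irreducible ψ.range
    · rintro _ ⟨a, rfl⟩ _ ⟨b, rfl⟩
      rw [← map_mul, ← map_mul, ← mul_inv_eq_one, ← map_inv, ← map_mul, hker]
      have h1 : a * b * (b * a)⁻¹ = ⁅a, b⁆ := by
        simp [commutatorElement_def, mul_assoc]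
      rw [h1]
      exact Subgroup.commutator_mem_commutator (Subgroup.mem_top _) (Subgroup.mem_top _)
    · intro W hW
      by_cases hW0 : W = ⊥
      · exact Or.inl hW0
      · right
        have hn : (W.map (commutator Γ).subtype).Normal := by
          refine ⟨fun n hn g => ?_⟩
          obtain ⟨w, hw, rfl⟩ := hn
          refine ⟨ψ g w, hW _ ⟨g, rfl⟩ w hw, ?_⟩
          exact hψ g w
        have hn0 : W.map (commutator Γ).subtype ≠ ⊥ := by
          intro h0
          apply hW0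
          rw [eq_bot_iff]
          intro w hw
          have h1 : (w : Γ) ∈ W.map (commutator Γ).subtype := ⟨w, hw, rfl⟩
          rw [h0, Subgroup.mem_bot] at h1
          rw [Subgroup.mem_bot]
          exact Subtype.ext h1
        have h1 := hJ.le _ hn hn0
        rw [eq_top_iff]
        intro d _
        obtain ⟨w, hw, hwd⟩ := h1 d.2
        have : w = d := Subtype.ext hwd
        rwa [← this]
  obtain ⟨⟨e, g₀, rfl⟩, he⟩ := hcyc
  refine ⟨g₀, fun i hi hlt hmem => ?_⟩
  have h1 := orderOf_eq_card_of_forall_mem_zpowers he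
  have h2 : Nat.card ψ.range = (commutator Γ).index := by
    have h3 : ψ.ker = commutator Γ := by
      ext g
      rw [MonoidHom.mem_ker, hker]
    have h4 : ψ.ker.index = (commutator Γ).index := congrArg Subgroup.index h3
    rw [← h4, Subgroup.index_ker]
  have h3 : (⟨ψ g₀, g₀, rfl⟩ : ψ.range) ^ i = 1 := by
    apply Subtype.ext
    have h4 : ψ (g₀ ^ i) = 1 := (hker _).mpr hmem
    rw [map_pow] at h4
    exact h4
  have h4 := orderOf_dvd_of_pow_eq_one h3
  rw [h1, h2] at h4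
  exact absurd (Nat.le_of_dvd hi h4) (by omega)

end Cfsg.Agent.Lib.Deg3
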