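import Cfsg.Agent.Lib.Deg3.Vanish
import Cfsg.Agent.Lib.Degree.Cod
import Cfsg.Agent.Lib.Degree.RootChar1
import Cfsg.Agent.Lib.CharExtra.Central
import Cfsg.Agent.Lib.Coprime.TwoDegrees
import Cfsg.Agent.Lib.PGroup.AbelianAct

/-!
# Three character degrees: just non-abelian quotients
-/

set_option autoImplicit false
set_option linter.unusedSectionVars false
set_option linter.unusedVariables false
set_option linter.unusedSimpArgs false

open Cfsg Cfsg.Agent.Lib.Char
open scoped commutatorElement ComplexConjugate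

namespace Cfsg.Agent.Lib.Deg3

universe u

/-- Every nontrivial normal subgroup contains the commutator subgroup. -/
structure JustNonAb (Γ : Type u) [Group Γ] : Prop where
  not_comm : ¬ ∀ a b : Γ, a * b = b * a
  le : ∀ D : Subgroup Γ, D.Normal → D ≠ ⊥ → commutator Γ ≤ D

theorem mk_commutatorElement' {G : Type u} [Group G] (K : Subgroup G) [K.Normal] (x y : G) :
    ((⁅x, y⁆ : G) : G ⧸ K) = ⁅(x : G ⧸ K), (y : G ⧸ K)⁆ :=
  map_commutatorElement (QuotientGroup.mk' K) x y

theorem exists_justNonAb {G : Type u} [Group G] [Finite G] (h : ¬ ∀ a b : G, a * b = b * a) :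
    ∃ K : Subgroup G, ∃ _ : K.Normal, JustNonAb (G ⧸ K) := by
  classical
  have hne : ¬ commutator G ≤ (⊥ : Subgroup G) := by
    intro h1
    apply h
    intro a b
    have h2 : ⁅a, b⁆ ∈ commutator G :=
      Subgroup.commutator_mem_commutator (Subgroup.mem_top _) (Subgroup.mem_top _)
    have h3 := h1 h2
    rwa [Subgroup.mem_bot, commutatorElement_eq_one_iff_mul_comm] at h3
  obtain ⟨K, hK⟩ := (Set.toFinite {M : Subgroup G | M.Normal ∧ ¬ commutator G ≤ M}).exists_maximal
    ⟨⊥, inferInstance, hne⟩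
  obtain ⟨hKn, hKc⟩ := hK.prop
  haveI := hKn
  refine ⟨K, hKn, ⟨?_, ?_⟩⟩
  · intro hc
    apply hKc
    rw [commutator_def, Subgroup.commutator_le]
    intro x _ y _
    rw [← QuotientGroup.eq_one_iff, mk_commutatorElement',
      commutatorElement_eq_one_iff_mul_comm]
    exact hc _ _
  · intro D hD hD0
    have h1 : commutator G ≤ D.comap (QuotientGroup.mk' K) := by
      by_contra hcon
      have h2 : K ≤ D.comap (QuotientGroup.mk' K) := by
        intro x hx
        rw [Subgroup.mem_comap]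
        have : QuotientGroup.mk' K x = 1 := (QuotientGroup.eq_one_iff x).mpr hx
        rw [this]
        exact D.one_mem
      have h3 := hK.le_of_ge (y := D.comap (QuotientGroup.mk' K)) ⟨Subgroup.Normal.comap hD _, hcon⟩ h2
      apply hD0
      rw [eq_bot_iff]
      intro q hq
      obtain ⟨x, rfl⟩ := QuotientGroup.mk_surjective q
      have h4 : x ∈ K := h3 hq
      rw [Subgroup.mem_bot]
      exact (QuotientGroup.eq_one_iff x).mpr h4
    rw [commutator_def, Subgroup.commutator_le]
    intro a _ b _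
    obtain ⟨x, rfl⟩ := QuotientGroup.mk_surjective a
    obtain ⟨y, rfl⟩ := QuotientGroup.mk_surjective b
    rw [← mk_commutatorElement']
    exact h1 (Subgroup.commutator_mem_commutator (Subgroup.mem_top _) (Subgroup.mem_top _))

section Faithful

variable {Γ : Type u} [Group Γ] [Fintype Γ]

/-- Nonlinear irreducible characters of a just non-abelian group are faithful. -/
theorem nonlinear_faithful (hJ : JustNonAb Γ) {χ : Γ → ℂ} (hχ : IsIrrCharacter Γ χ)
    (h1 : charDegree χ ≠ 1) (g : Γ) (hg : χ g = χ 1) : g = 1 := by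
  by_contra hne
  have hc := IsIrrCharacter.isCharacter hχ
  have hK := Degree.kerOf_normal (IsCharacter.isClassFunction hc)
  have hK0 : Degree.kerOf χ ≠ ⊥ := by
    intro h0
    apply hne
    have h2 : g ∈ Degree.kerOf χ := (Degree.mem_kerOf_iff hc).mpr hg
    rw [h0, Subgroup.mem_bot] at h2
    exact h2
  have h2 := hJ.le _ hK hK0
  have h3 : Degree.KerContains (commutator Γ) χ := fun n hn => (Degree.mem_kerOf_iff hc).mp (h2 hn)
  obtain ⟨ψ, hψ⟩ := Degree.exists_inflate (commutator Γ) (χ := ⟨χ, hχ⟩) h3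
  apply h1
  have h4 := charDegree_inflate (commutator Γ) ψ
  rw [hψ] at h4
  change charDegree χ = _ at h4
  rw [h4]
  have hcm : ∀ a b : Γ ⧸ commutator Γ, a * b = b * a := by
    intro a b
    obtain ⟨x, rfl⟩ := QuotientGroup.mk_surjective a
    obtain ⟨y, rfl⟩ := QuotientGroup.mk_surjective b
    rw [← commutatorElement_eq_one_iff_mul_comm, ← mk_commutatorElement',
      QuotientGroup.eq_one_iff]
    exact Subgroup.commutator_mem_commutator (Subgroup.mem_top _) (Subgroup.mem_top _)
  have h5 := charDegree_eq_one_of_comm hcm ψ.2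
  exact charDegree_natCast (n := 1) (by simpa using h5)

/-- The norm condition when the centre is trivial. -/
theorem norm_cond (hJ : JustNonAb Γ) (hZ : Subgroup.center Γ = ⊥) {χ : Γ → ℂ} (hχ : IsIrrCharacter Γ χ)
    (h1 : charDegree χ ≠ 1) (g : Γ) (hg : g ≠ 1) : χ g * conj (χ g) ≠ (charDegree χ : ℂ) ^ 2 := by
  intro h
  have hc := IsIrrCharacter.isCharacter hχ
  have h2 : ‖χ g‖ = ‖χ 1‖ := by
    rw [map_one_eq_charDegree hc, Complex.norm_natCast]
    rw [Complex.mul_conj'] at h
    have h3 : ‖χ g‖ ^ 2 = (charDegree χ : ℝ) ^ 2 := by exact_mod_cast h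
    exact (sq_eq_sq₀ (norm_nonneg _) (Nat.cast_nonneg _)).mp h3
  have h3 := Degree.mem_center_of_norm_eq ⟨χ, hχ⟩ (nonlinear_faithful hJ hχ h1) h2
  rw [hZ, Subgroup.mem_bot] at h3
  exact hg h3

/-- A nonlinear character vanishes off the centre when the commutator subgroup is central. -/
theorem vanish_off_center (hJ : JustNonAb Γ) (hD : commutator Γ ≤ Subgroup.center Γ) {χ : Γ → ℂ}
    (hχ : IsIrrCharacter Γ χ) (h1 : charDegree χ ≠ 1) (g : Γ) (hg : g ∉ Subgroup.center Γ) :
    χ g = 0 := by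
  rw [Subgroup.mem_center_iff] at hg
  push Not at hg
  obtain ⟨h, hh⟩ := hg
  have hc := IsIrrCharacter.isCharacter hχ
  have hz : ⁅h, g⁆ ∈ Subgroup.center Γ :=
    hD (Subgroup.commutator_mem_commutator (Subgroup.mem_top _) (Subgroup.mem_top _))
  have h2 : χ (h * g * h⁻¹) = χ g := IsCharacter.isClassFunction hc g h
  have h3 : h * g * h⁻¹ = g * ⁅h, g⁆ := by
    have := (Subgroup.mem_center_iff.mp hz) g
    rw [this]
    simp [commutatorElement_def, mul_assoc]
  rw [h3, show χ (g * ⁅h, g⁆) = χ g * χ ⁅h, g⁆ / χ 1 from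
    Cfsg.Agent.Lib.CharExtra.irr_mul_central ⟨χ, hχ⟩ hz g] at h2
  have h4 : χ 1 ≠ 0 := map_one_ne_zero_of_irr hχ
  by_contra h0
  have h5 : χ ⁅h, g⁆ = χ 1 := by
    field_simp at h2
    exact h2
  have h6 := nonlinear_faithful hJ hχ h1 _ h5
  rw [commutatorElement_eq_one_iff_mul_comm] at h6
  exact hh h6

theorem norm_on_center {χ : Γ → ℂ} (hχ : IsIrrCharacter Γ χ) (z : Γ) (hz : z ∈ Subgroup.center Γ) :
    χ z * conj (χ z) = (charDegree χ : ℂ) ^ 2 := by
  have hc := IsIrrCharacter.isCharacter hχ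
  obtain ⟨lam, hlam⟩ := Cfsg.Agent.Lib.CharExtra.exists_hom_of_central ⟨χ, hχ⟩ (Subgroup.center Γ) le_rfl
  have h1 := hlam ⟨z, hz⟩
  have h2 := norm_hom_eq_one lam ⟨z, hz⟩
  rw [h1] at h2
  simp only at h2
  rw [map_one_eq_charDegree hc, norm_div, Complex.norm_natCast] at h2
  have h3 : (charDegree χ : ℝ) ≠ 0 := by
    have := charDegree_pos_of_irr hχ
    positivity
  have h4 : ‖χ z‖ = charDegree χ := by
    field_simp at h2
    exact h2
  rw [Complex.mul_conj', h4]
  norm_cast

end Faithful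

section Restrict

variable {H : Type u} [Group H] [Fintype H]

theorem sum_eq_sum_subgroup (K : Subgroup H) [Fintype K] (F : H → ℂ) (h : ∀ g, g ∉ K → F g = 0) :
    ∑ g : H, F g = ∑ n : K, F n := by
  symm
  refine Fintype.sum_of_injective (Subtype.val : K → H) Subtype.val_injective _ _ ?_ fun _ => rfl
  intro g hg
  refine h g fun hk => hg ⟨⟨g, hk⟩, rfl⟩

/-- Coprime degree and index: the restriction stays irreducible. -/
theorem restrict_irr_of_coprime (K : Subgroup H) [K.Normal] [Fintype K] {τ : H → ℂ}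
    (hτ : IsIrrCharacter H τ) (hc : Nat.Coprime (charDegree τ) K.index) :
    IsIrrCharacter K (fun n : K => τ n) := by
  obtain ⟨θ, hθ⟩ := Cfsg.Agent.Lib.Block.exists_constituent K ⟨τ, hτ⟩
  have hτc := IsIrrCharacter.isCharacter hτ
  have hθc := IsIrrCharacter.isCharacter θ.2
  have hres := IsCharacter.restrict K hτc
  obtain ⟨h1, h2⟩ := Cfsg.Agent.S0887.result K τ hτ (θ : K → ℂ) θ.2 hθ _ _
    (map_one_eq_charDegree hτc) (map_one_eq_charDegree hθc)
  have h3 : charDegree τ / charDegree (θ : K → ℂ) ∣ charDegree τ := Nat.div_dvd_of_dvd h1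
  have h4 := Nat.eq_one_of_dvd_coprimes hc h3 h2
  have hpos := charDegree_pos_of_irr hτ
  have h5 : charDegree τ = charDegree (θ : K → ℂ) := by
    obtain ⟨c, hc'⟩ := h1
    rw [hc', Nat.mul_div_cancel_left _ (charDegree_pos_of_irr θ.2)] at h4
    rw [hc', h4, mul_one]
  have h6 : charDegree (fun n : K => τ n) = charDegree τ := by
    refine charDegree_natCast ?_
    simpa using map_one_eq_charDegree hτc
  have h7 := eq_of_constituent_of_degree_eq hres θ.2 hθ (by rw [h6, h5])
  rw [h7]
  exact θ.2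

theorem sum_restrict_norm (K : Subgroup H) [K.Normal] [Fintype K] {τ : H → ℂ}
    (hτ : IsIrrCharacter H τ) (hc : Nat.Coprime (charDegree τ) K.index) :
    ∑ n : K, τ n * conj (τ n) = (Nat.card K : ℂ) := by
  have h1 := classInner_irr_self (restrict_irr_of_coprime K hτ hc)
  rw [classInner_def] at h1
  have h2 : (Nat.card K : ℂ) ≠ 0 := by exact_mod_cast Nat.card_pos.ne'
  field_simp at h1
  simpa using h1

/-- A character of degree prime to the index vanishing off a normal subgroup lives on it. -/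
theorem top_of_vanish (K : Subgroup H) [K.Normal] [Fintype K] {θ : H → ℂ}
    (hθ : IsIrrCharacter H θ) (hv : ∀ h, h ∉ K → θ h = 0) (hc : Nat.Coprime (charDegree θ) K.index) :
    K = ⊤ := by
  have h1 := classInner_irr_self hθ
  rw [classInner_def, sum_eq_sum_subgroup K _ (fun g hg => by rw [hv g hg]; simp),
    sum_restrict_norm K hθ hc] at h1
  have h2 : (Nat.card H : ℂ) ≠ 0 := by exact_mod_cast Nat.card_pos.ne'
  have h3 : (Nat.card K : ℂ) = Nat.card H := by
    field_simp at h1
    exact h1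
  have h4 : Nat.card K = Nat.card H := by exact_mod_cast h3
  have h5 := K.index_mul_card
  rw [h4] at h5
  have h6 : K.index = 1 := Nat.eq_of_mul_eq_mul_right Nat.card_pos (by rw [h5, one_mul])
  exact Subgroup.index_eq_one.mp h6

/-- Product with a fully ramified character stays irreducible. -/
theorem mul_irr_of_vanish (Y : Subgroup H) [Y.Normal] [Fintype Y] {χ τ : H → ℂ}
    (hχ : IsIrrCharacter H χ) (hτ : IsIrrCharacter H τ)
    (hv : ∀ g, g ∉ Y → χ g = 0) (hn : ∀ y, y ∈ Y → χ y * conj (χ y) = (charDegree χ : ℂ) ^ 2)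
    (hc : Nat.Coprime (charDegree τ) (charDegree χ)) : IsIrrCharacter H (χ * τ) := by
  set m := charDegree χ with hm
  have hχc := IsIrrCharacter.isCharacter hχ
  have hτc := IsIrrCharacter.isCharacter hτ
  have hY : (m : ℂ) ^ 2 * Nat.card Y = Nat.card H := by
    have h1 := classInner_irr_self hχ
    have hsum : ∑ g : H, χ g * conj (χ g) = ∑ n : Y, (m : ℂ) ^ 2 := by
      rw [sum_eq_sum_subgroup Y _ (fun g hg => by rw [hv g hg]; simp)]
      exact Finset.sum_congr rfl fun n _ => hn n n.2
    rw [classInner_def, hsum] at h1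
    have h2 : (Nat.card H : ℂ) ≠ 0 := by exact_mod_cast Nat.card_pos.ne'
    simp only [Finset.sum_const, Finset.card_univ, nsmul_eq_mul, Nat.card_eq_fintype_card] at h1 ⊢
    field_simp at h1
    rw [mul_comm]
    exact h1
  have hYn : m ^ 2 * Nat.card Y = Nat.card H := by exact_mod_cast hY
  have hidx : Y.index = m ^ 2 := by
    have h5 := Y.index_mul_card
    rw [← hYn] at h5
    exact Nat.eq_of_mul_eq_mul_right Nat.card_pos h5
  have hcY : Nat.Coprime (charDegree τ) Y.index := by
    rw [hidx]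
    exact hc.pow_right 2
  refine isIrr_of_character_norm_one (IsCharacter.mul hχc hτc) ?_
  rw [classInner_def, sum_eq_sum_subgroup Y _ (fun g hg => by simp [hv g hg])]
  have h1 : ∀ n : Y, (χ * τ) n * conj ((χ * τ) n) = (m : ℂ) ^ 2 * (τ n * conj (τ n)) := by
    intro n
    rw [← hn n n.2]
    simp only [Pi.mul_apply, map_mul]
    ring
  rw [Finset.sum_congr rfl (fun n _ => h1 n), ← Finset.mul_sum, sum_restrict_norm Y hτ hcY, hY]
  have h2 : (Nat.card H : ℂ) ≠ 0 := by exact_mod_cast Nat.card_pos.ne'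
  field_simp

end Restrict

end Cfsg.Agent.Lib.Deg3
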