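import Cfsg.Agent.Lib.Deg3.Frob

/-!
# Three character degrees: degrees of the preimage of the commutator subgroup
-/

set_option autoImplicit false
set_option linter.unusedSectionVars false
set_option linter.unusedVariables false
set_option linter.unusedSimpArgs false

open Cfsg Cfsg.Agent.Lib.Char
open scoped commutatorElement ComplexConjugate

namespace Cfsg.Agent.Lib.Deg3

universe u

theorem exists_hom_ne_one {Q : Type*} [Group Q] [Finite Q] (hc : ∀ a b : Q, a * b = b * a) (a : Q)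
    (ha : a ≠ 1) : ∃ l : Q →* ℂˣ, l a ≠ 1 := by
  classical
  haveI := Fintype.ofFinite Q
  have h1 : ¬ IsConj a 1 := fun h => ha (isConj_one_right.mp h.symm)
  rw [isConj_iff_forall_irr] at h1
  push Not at h1
  obtain ⟨χ, hχ⟩ := h1
  have h2 : (χ : Q → ℂ) 1 = 1 := charDegree_eq_one_of_comm hc χ.2
  obtain ⟨l, hl⟩ := exists_hom_of_character_one (IsIrrCharacter.isCharacter χ.2) h2
  refine ⟨l, fun h3 => hχ ?_⟩
  rw [hl]
  simp [h3]

variable {G : Type u} [Group G] [Fintype G]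

theorem lemma_b {m m' : ℕ} (hcop : Nat.Coprime m m') (h1m : 1 < m) (h1m' : 1 < m')
    (hcd : ∀ γ : IrrCharacter G, charDegree (γ : G → ℂ) = 1 ∨ charDegree (γ : G → ℂ) = m ∨
      charDegree (γ : G → ℂ) = m')
    (N M : Subgroup G) [hN : N.Normal] [hM : M.Normal] (hMN : M ≤ N)
    (hidx : N.index = m)
    (hcomG : ∀ a b : G, a * b * a⁻¹ * b⁻¹ ∈ N)
    (hcomN : ∀ a ∈ N, ∀ b ∈ N, a * b * a⁻¹ * b⁻¹ ∈ M)
    (hne : M ≠ N)
    (g₀ : G) (hg₀ : ∀ i : ℕ, 0 < i → i < m → g₀ ^ i ∉ N)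
    (hfpf : ∀ y, y ∉ N → ∀ n ∈ N, y * n * y⁻¹ * n⁻¹ ∈ M → n ∈ M)
    (hrel : Nat.Coprime (M.subgroupOf N).index m)
    [Fintype N] (θ : IrrCharacter N) :
    charDegree (θ : N → ℂ) = 1 ∨ charDegree (θ : N → ℂ) = m' := by
  classical
  by_contra hcon
  push Not at hcon
  obtain ⟨hδ1, hδ2⟩ := hcon
  set δ := charDegree (θ : N → ℂ) with hδ
  have hδpos : 0 < δ := charDegree_pos_of_irr θ.2
  have h1δ : 1 < δ := by omega
  -- `δ` divides `m`
  have hδdvd : ∀ (θ' : N → ℂ), IsIrrCharacter N θ' → charDegree θ' = δ →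
      ∀ χ : IrrCharacter G, classInner (fun n : N => (χ : G → ℂ) n) θ' ≠ 0 →
      δ ∣ charDegree (χ : G → ℂ) ∧ charDegree (χ : G → ℂ) / δ ∣ m := by
    intro θ' hθ' hd' χ hχ
    have h := Cfsg.Agent.S0887.result N (χ : G → ℂ) χ.2 θ' hθ' hχ _ _
      (map_one_eq_charDegree (IsIrrCharacter.isCharacter χ.2))
      (map_one_eq_charDegree (IsIrrCharacter.isCharacter hθ'))
    rwa [hd', hidx] at h
  obtain ⟨χ, hχ⟩ := exists_above N θ
  have hδm : δ ∣ m := by
    obtain ⟨h1, h2⟩ := hδdvd _ θ.2 rfl χ hχ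
    rcases hcd χ with h | h | h
    · rw [h] at h1
      have := Nat.le_of_dvd one_pos h1
      omega
    · rwa [h] at h1
    · exfalso
      rw [h] at h1 h2
      have h3 : m' / δ ∣ m' := Nat.div_dvd_of_dvd h1
      have h4 := Nat.eq_one_of_dvd_coprimes hcop h2 h3
      obtain ⟨c, hc⟩ := h1
      rw [hc, Nat.mul_div_cancel_left _ hδpos] at h4
      rw [hc, h4, mul_one] at hδ2
      exact hδ2 rfl
  have hδcop' : ¬ δ ∣ m' := by
    intro h
    have := Nat.eq_one_of_dvd_coprimes hcop hδm h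
    omega
  set t₀ := m / δ with ht₀
  have hmδ : m = δ * t₀ := (Nat.mul_div_cancel' hδm).symm
  have ht₀pos : 0 < t₀ := Nat.div_pos (Nat.le_of_dvd (by omega) hδm) hδpos
  have ht₀lt : t₀ < m := by
    rw [hmδ]
    nlinarith
  -- the element fixing all characters of degree `δ`
  have hstep : ∀ θ' : N → ℂ, IsIrrCharacter N θ' → charDegree θ' = δ →
      g₀ ^ t₀ ∈ inertia hN θ' := by
    intro θ' hθ' hd'
    have hθ'c := IsIrrCharacter.isCharacter hθ'
    obtain ⟨χ', hχ'⟩ := exists_above N ⟨θ', hθ'⟩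
    change classInner (fun n : N => (χ' : G → ℂ) n) θ' ≠ 0 at hχ'
    obtain ⟨h1, h2⟩ := hδdvd θ' hθ' hd' χ' hχ'
    have hχ'm : charDegree (χ' : G → ℂ) = m := by
      rcases hcd χ' with h | h | h
      · rw [h] at h1
        have := Nat.le_of_dvd one_pos h1
        omega
      · exact h
      · rw [h] at h1
        exact absurd h1 hδcop'
    obtain ⟨e, he⟩ := classInner_isCharacter_nat (IsCharacter.restrict N (IsIrrCharacter.isCharacter χ'.2)) hθ'c
    have he0 : e ≠ 0 := by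
      rintro rfl
      apply hχ'
      rw [he]
      simp
    have hdeg := clifford_degree hN χ'.2 hθ' he he0
    rw [hχ'm, hd', hmδ] at hdeg
    have ht : (inertia hN θ').index ∣ t₀ := by
      have h3 : δ * t₀ = δ * (e * (inertia hN θ').index) := by
        rw [hdeg]
        ring
      have h4 := Nat.eq_of_mul_eq_mul_left hδpos h3
      rw [h4]
      exact dvd_mul_left _ _
    have hinN : N ≤ inertia hN θ' := le_inertia hN (IsCharacter.isClassFunction hθ'c)
    have hnorm : (inertia hN θ').Normal := by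
      refine ⟨fun a ha g => ?_⟩
      have h3 : g * a * g⁻¹ = (g * a * g⁻¹ * a⁻¹) * a := by group
      rw [h3]
      exact (inertia hN θ').mul_mem (hinN (hcomG _ _)) ha
    have hp : g₀ ^ (inertia hN θ').index ∈ inertia hN θ' := Subgroup.pow_index_mem _ g₀
    obtain ⟨c, hc⟩ := ht
    rw [hc, pow_mul]
    exact (inertia hN θ').pow_mem hp c
  set y := g₀ ^ t₀ with hy
  have hyN : y ∉ N := hg₀ t₀ ht₀pos ht₀lt
  have hθc := IsIrrCharacter.isCharacter θ.2
  -- the quotient of `N` by `M`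
  set K : Subgroup N := M.subgroupOf N with hK
  haveI hKn : K.Normal := inferInstance
  have hQc : ∀ a b : N ⧸ K, a * b = b * a := by
    intro a b
    obtain ⟨x, rfl⟩ := QuotientGroup.mk_surjective a
    obtain ⟨z, rfl⟩ := QuotientGroup.mk_surjective b
    rw [← commutatorElement_eq_one_iff_mul_comm, ← mk_commutatorElement', QuotientGroup.eq_one_iff, hK,
      Subgroup.mem_subgroupOf]
    exact hcomN _ x.2 _ z.2
  -- vanishing off `M`
  have hv : ∀ n : N, n ∉ K → (θ : N → ℂ) n = 0 := by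
    intro n hn
    rw [hK, Subgroup.mem_subgroupOf] at hn
    by_contra h0
    have hc1 : y * n * y⁻¹ * (n : G)⁻¹ ∈ N := hcomG _ _
    have hc2 : y * n * y⁻¹ * (n : G)⁻¹ ∉ M := fun h => hn (hfpf y hyN n n.2 h)
    set c : N := ⟨y * n * y⁻¹ * (n : G)⁻¹, hc1⟩ with hc
    have hc3 : (c : N ⧸ K) ≠ 1 := by
      rw [Ne, QuotientGroup.eq_one_iff, hK, Subgroup.mem_subgroupOf]
      exact hc2
    haveI : Finite (N ⧸ K) := inferInstance
    obtain ⟨l, hl⟩ := exists_hom_ne_one hQc _ hc3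
    let lam : N →* ℂˣ := l.comp (QuotientGroup.mk' K)
    have hμi : IsIrrCharacter N (fun x => (lam x : ℂ)) := isIrrCharacter_of_hom lam
    have hμ1 : (fun x => (lam x : ℂ)) (1 : N) = 1 := by simp
    have hirr := isIrr_mul_linear θ.2 (IsIrrCharacter.isCharacter hμi) hμ1
    have hdeg : charDegree ((θ : N → ℂ) * fun x => (lam x : ℂ)) = δ := by
      refine charDegree_natCast ?_
      simp only [Pi.mul_apply, map_one, Units.val_one, mul_one]
      exact map_one_eq_charDegree hθc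
    have h1 := (mem_inertia_iff hN _ y).mp (hstep _ θ.2 rfl) n
    have h2 := (mem_inertia_iff hN _ y).mp (hstep _ hirr hdeg) n
    simp only [Pi.mul_apply] at h2
    rw [h1] at h2
    have h3 : lam ⟨y * n * y⁻¹, hN.conj_mem (n : G) n.2 y⟩ = lam n := by
      have h4 := mul_left_cancel₀ h0 h2
      exact Units.ext h4
    have h5 : (⟨y * n * y⁻¹, hN.conj_mem (n : G) n.2 y⟩ : N) = c * n := by
      apply Subtype.ext
      simp [hc]
    rw [h5, map_mul] at h3
    have h6 : lam c = 1 := by simpa using h3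
    exact hl h6
  have hcopK : Nat.Coprime δ K.index := Nat.Coprime.coprime_dvd_left hδm hrel.symm
  haveI : Fintype K := Fintype.ofFinite K
  have htop := top_of_vanish K θ.2 hv hcopK
  rw [hK, Subgroup.subgroupOf_eq_top] at htop
  exact hne (le_antisymm hMN htop)

/-- From the degrees of `N` to the derived length of `G`. -/
theorem derived_three_of_lemma_b {m m' : ℕ} (hcop : Nat.Coprime m m') (h1m : 1 < m) (h1m' : 1 < m')
    (hcd : ∀ γ : IrrCharacter G, charDegree (γ : G → ℂ) = 1 ∨ charDegree (γ : G → ℂ) = m ∨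
      charDegree (γ : G → ℂ) = m')
    (N M : Subgroup G) [hN : N.Normal] [hM : M.Normal] (hMN : M ≤ N)
    (hidx : N.index = m)
    (hcomG : ∀ a b : G, a * b * a⁻¹ * b⁻¹ ∈ N)
    (hcomN : ∀ a ∈ N, ∀ b ∈ N, a * b * a⁻¹ * b⁻¹ ∈ M)
    (hne : M ≠ N)
    (g₀ : G) (hg₀ : ∀ i : ℕ, 0 < i → i < m → g₀ ^ i ∉ N)
    (hfpf : ∀ y, y ∉ N → ∀ n ∈ N, y * n * y⁻¹ * n⁻¹ ∈ M → n ∈ M)
    (hrel : Nat.Coprime (M.subgroupOf N).index m) : derivedSeries G 3 = ⊥ := by
  classical
  haveI : Fintype N := Fintype.ofFinite N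
  have h1 := derived_two_of_two_deg m' fun θ : IrrCharacter N =>
    lemma_b hcop h1m h1m' hcd N M hMN hidx hcomG hcomN hne g₀ hg₀ hfpf hrel θ
  have h2 : derivedSeries G 1 ≤ (derivedSeries N 0).map N.subtype := by
    rw [derivedSeries_zero, ← MonoidHom.range_eq_map, Subgroup.range_subtype, derivedSeries_one,
      commutator_def, Subgroup.commutator_le]
    intro a _ b _
    exact hcomG a b
  have h3 := derived_add_le N 1 0 h2 2
  rw [show 0 + 2 = 2 from rfl, h1, Subgroup.map_bot] at h3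
  exact le_antisymm h3 bot_le

end Cfsg.Agent.Lib.Deg3
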