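import Cfsg.Agent.Lib.Deg3.Basic

/-!
# Three character degrees: a prime divides both nonlinear degrees
-/

set_option autoImplicit false
set_option linter.unusedSectionVars false
set_option linter.unusedVariables false
set_option linter.unusedSimpArgs false

open Cfsg Cfsg.Agent.Lib.Char
open scoped commutatorElement

namespace Cfsg.Agent.Lib.Deg3

universe u

variable {G : Type u} [Group G] [Finite G]

/-- All characters monomial and three degrees: derived length at most three. -/
theorem derived_three_of_monomial (a b : ℕ) (ha : 0 < a) (hb : 0 < b)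
    (hcd : ∀ χ : IrrCharacter G, charDegree (χ : G → ℂ) = 1 ∨ charDegree (χ : G → ℂ) = a ∨
      charDegree (χ : G → ℂ) = b)
    [Fintype G]
    (hM : ∀ χ : G → ℂ, IsIrrCharacter G χ →
      ∃ (H : Subgroup G) (lam : H →* ℂˣ), χ = indFun H (fun h => (lam h : ℂ))) :
    derivedSeries G 3 = ⊥ := by
  have hdeg : ∀ ξ : G → ℂ, IsIrrCharacter G ξ → charDegree ξ = 1 ∨ charDegree ξ = a ∨ charDegree ξ = b :=
    fun ξ hξ => hcd ⟨ξ, hξ⟩
  have h1 := Coprime.taketa_step hM 1 (min a b) (by
    intro ξ hξ hlt g hg
    refine Coprime.map_derived_of_linear hξ ?_ g hg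
    rcases hdeg ξ hξ with h | h | h
    · exact h
    · omega
    · omega)
  have h2 := Coprime.taketa_step hM 2 (max a b) (by
    intro ξ hξ hlt g hg
    refine h1 ξ hξ ?_ g hg
    have hpos := charDegree_pos_of_irr hξ
    rcases hdeg ξ hξ with h | h | h
    · omega
    · omega
    · omega)
  rw [eq_bot_iff]
  intro g hg
  rw [Subgroup.mem_bot]
  apply Coprime.eq_one_of_forall_irr_ker
  intro χ
  refine h2 χ χ.2 ?_ g hg
  rcases hdeg χ χ.2 with h | h | h <;> rw [h] <;> omega

theorem ordCompl_eq_of {r x d i : ℕ} (hr : r.Prime) (hd : d.Coprime r) (h : x = r ^ i * d) (hd0 : d ≠ 0) :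
    x / r ^ x.factorization r = d := by
  subst h
  have h1 : (r ^ i * d).factorization r = i := by
    rw [Nat.factorization_mul (pow_ne_zero _ hr.ne_zero) hd0, Nat.Prime.factorization_pow hr]
    simp [Nat.factorization_eq_zero_of_not_dvd (fun h => hr.one_lt.ne' (Nat.eq_one_of_dvd_coprimes hd h dvd_rfl))]
  rw [h1]
  exact Nat.mul_div_cancel_left _ (pow_pos hr.pos _)

/-- The main reduction when a prime divides both degrees. -/
theorem case_prime
    (IH : ∀ (A : Type u) [Group A] [Finite A], Nat.card A < Nat.card G → ∀ a b : ℕ,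
      (∀ χ : IrrCharacter A, charDegree (χ : A → ℂ) = 1 ∨ charDegree (χ : A → ℂ) = a ∨
        charDegree (χ : A → ℂ) = b) → derivedSeries A 3 = ⊥)
    (a b r : ℕ) (hr : r.Prime) (ha : 0 < a) (hb : 0 < b) (hra : r ∣ a) (hrb : r ∣ b)
    (hcd : ∀ χ : IrrCharacter G, charDegree (χ : G → ℂ) = 1 ∨ charDegree (χ : G → ℂ) = a ∨
      charDegree (χ : G → ℂ) = b)
    (hex : ∃ χ : IrrCharacter G, charDegree (χ : G → ℂ) = a) :
    derivedSeries G 3 = ⊥ := by
  classical
  haveI := Fintype.ofFinite G
  have hdeg : ∀ χ : IrrCharacter G, charDegree (χ : G → ℂ) ≠ 1 → r ∣ charDegree (χ : G → ℂ) := by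
    intro χ h1
    rcases hcd χ with h | h | h
    · exact absurd h h1
    · rw [h]; exact hra
    · rw [h]; exact hrb
  obtain ⟨A, hAn, hcop, k, hk⟩ := Cfsg.Agent.S4456.result r hr hdeg
  haveI := hAn
  haveI : Fintype A := Fintype.ofFinite A
  have hrel := degree_relation r hr A hcop hk
  -- degrees of `A`
  set a₁ := a / r ^ a.factorization r with ha₁
  set b₁ := b / r ^ b.factorization r with hb₁
  have hdA : ∀ θ : IrrCharacter A, charDegree (θ : A → ℂ) = 1 ∨ charDegree (θ : A → ℂ) = a₁ ∨
      charDegree (θ : A → ℂ) = b₁ := by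
    intro θ
    obtain ⟨χ, hχ⟩ := exists_above A θ
    obtain ⟨i, h1, h2⟩ := hrel χ θ hχ
    have h0 : charDegree (θ : A → ℂ) ≠ 0 := (charDegree_pos_of_irr θ.2).ne'
    rcases hcd χ with h | h | h
    · left
      rw [h] at h1
      exact Nat.dvd_one.mp ⟨r ^ i, by rw [h1]; ring⟩
    · right; left
      rw [h] at h1
      exact (ordCompl_eq_of hr h2 h1 h0).symm
    · right; right
      rw [h] at h1
      exact (ordCompl_eq_of hr h2 h1 h0).symm
  -- `A` is smaller
  have hcard : Nat.card A < Nat.card G := by
    obtain ⟨χ, hχ⟩ := hex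
    have h1 : r ∣ Nat.card G := (hχ ▸ hra).trans (charDegree_dvd_card χ.2)
    have h2 := Subgroup.card_mul_index A
    rw [hk] at h2
    rcases k with _ | k
    · exfalso
      rw [pow_zero, mul_one] at h2
      rw [← h2] at h1
      exact hr.one_lt.ne' (Nat.eq_one_of_dvd_coprimes hcop h1 dvd_rfl)
    · rw [← h2]
      have hpos : 0 < Nat.card A := Nat.card_pos
      have h3 : 1 < r ^ (k + 1) := Nat.one_lt_pow (by omega) hr.one_lt
      nlinarith
  -- characters above the commutator subgroup of `A`
  have hab : ∀ ψ : IrrCharacter (G ⧸ cmt A), ∃ i : ℕ, charDegree (ψ : G ⧸ cmt A → ℂ) = r ^ i := by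
    intro ψ
    obtain ⟨θ, hθ⟩ := Block.exists_constituent A (Degree.inflate (cmt A) ψ)
    have hlin := constituent_linear A _ θ (Degree.inflate_kerContains (cmt A) ψ) hθ
    obtain ⟨i, h1, -⟩ := hrel _ θ hθ
    rw [charDegree_inflate, hlin, mul_one] at h1
    exact ⟨i, h1⟩
  have hquot : ∀ ψ : IrrCharacter (G ⧸ cmt A), charDegree (ψ : G ⧸ cmt A → ℂ) = 1 ∨
      charDegree (ψ : G ⧸ cmt A → ℂ) = a ∨ charDegree (ψ : G ⧸ cmt A → ℂ) = b := by
    intro ψ
    have := hcd (Degree.inflate (cmt A) ψ)
    rwa [charDegree_inflate] at this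
  have hpp : ∀ {x i : ℕ}, x = r ^ i → x / r ^ x.factorization r = 1 := by
    intro x i hx
    exact ordCompl_eq_of hr (Nat.coprime_one_left r) (by rw [hx, mul_one]) one_ne_zero
  have hGA : derivedSeries G 1 = derivedSeries G 1 := rfl
  have hcmt : ∀ j : ℕ, (derivedSeries A (j + 1)).map A.subtype ≤ ⊤ := fun _ => le_top
  by_cases ha1 : a₁ = 1
  · by_cases hb1 : b₁ = 1
    · -- all degrees powers of `r`: `A` is abelian and all characters are monomial
      have hlin : ∀ θ : IrrCharacter A, (θ : A → ℂ) 1 = 1 := by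
        intro θ
        rw [map_one_eq_charDegree (IsIrrCharacter.isCharacter θ.2)]
        rcases hdA θ with h | h | h
        · rw [h]; simp
        · rw [h, ha1]; simp
        · rw [h, hb1]; simp
      have hc := comm_iff_forall_irr_degree_one.mpr hlin
      refine derived_three_of_monomial a b ha hb hcd ?_
      intro χ hχ
      exact monomial_of_abelian_normal r hr G ⟨A, hAn, fun x hx y hy => by
        have := hc ⟨x, hx⟩ ⟨y, hy⟩
        exact congrArg Subtype.val this, k, hk⟩ χ hχ
    · -- `a` is a power of `r`, `b` is not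
      have hA2 : derivedSeries A 2 = ⊥ := by
        refine derived_two_of_two_deg b₁ fun θ => ?_
        rcases hdA θ with h | h | h
        · exact Or.inl h
        · left; rw [h, ha1]
        · exact Or.inr h
      have hq2 : derivedSeries (G ⧸ cmt A) 2 = ⊥ := by
        refine derived_two_of_two_deg a fun ψ => ?_
        rcases hquot ψ with h | h | h
        · exact Or.inl h
        · exact Or.inr h
        · exfalso
          obtain ⟨i, hi⟩ := hab ψ
          apply hb1
          exact hpp (h.symm.trans hi)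
      have h1 := derived_le_of_quot (cmt A) 2 hq2
      have h2 := derived_add_le A 2 1 h1 1
      rw [eq_bot_iff]
      refine h2.trans ?_
      rw [show 1 + 1 = 2 from rfl, hA2, Subgroup.map_bot]
  · by_cases hb1 : b₁ = 1
    · have hA2 : derivedSeries A 2 = ⊥ := by
        refine derived_two_of_two_deg a₁ fun θ => ?_
        rcases hdA θ with h | h | h
        · exact Or.inl h
        · exact Or.inr h
        · left; rw [h, hb1]
      have hq2 : derivedSeries (G ⧸ cmt A) 2 = ⊥ := by
        refine derived_two_of_two_deg b fun ψ => ?_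
        rcases hquot ψ with h | h | h
        · exact Or.inl h
        · exfalso
          obtain ⟨i, hi⟩ := hab ψ
          apply ha1
          exact hpp (h.symm.trans hi)
        · exact Or.inr h
      have h1 := derived_le_of_quot (cmt A) 2 hq2
      have h2 := derived_add_le A 2 1 h1 1
      rw [eq_bot_iff]
      refine h2.trans ?_
      rw [show 1 + 1 = 2 from rfl, hA2, Subgroup.map_bot]
    · have hq1 : derivedSeries (G ⧸ cmt A) 1 = ⊥ := by
        refine derived_one_of_all_linear fun ψ => ?_
        rcases hquot ψ with h | h | h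
        · exact h
        · exfalso
          obtain ⟨i, hi⟩ := hab ψ
          apply ha1
          exact hpp (h.symm.trans hi)
        · exfalso
          obtain ⟨i, hi⟩ := hab ψ
          apply hb1
          exact hpp (h.symm.trans hi)
      have h1 := derived_le_of_quot (cmt A) 1 hq1
      have h2 := derived_add_le A 1 1 h1 2
      have hA3 := IH A hcard a₁ b₁ hdA
      rw [eq_bot_iff]
      refine h2.trans ?_
      rw [show 1 + 2 = 3 from rfl, hA3, Subgroup.map_bot]

end Cfsg.Agent.Lib.Deg3
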