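import Cfsg.Agent.Lib.Deg3.LemB
import Cfsg.Agent.S4466

/-!
# Prime character degrees: at most three degrees
-/

set_option autoImplicit false
set_option linter.unusedSectionVars false
set_option linter.unusedVariables false
set_option linter.unusedSimpArgs false

open Cfsg Cfsg.Agent.Lib.Char
open scoped commutatorElement ComplexConjugate

namespace Cfsg.Agent.Lib.Deg3

universe u

section Clifford

variable {G : Type u} [Group G] [Fintype G]

/-- The norm of a restriction in Clifford's theorem. -/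
theorem clifford_norm {N : Subgroup G} [Fintype N] (hN : N.Normal) {χ : G → ℂ} {θ : N → ℂ}
    (hχ : IsIrrCharacter G χ) (hθ : IsIrrCharacter N θ) {e : ℕ}
    (he : classInner (fun n : N => χ n) θ = e) (he0 : e ≠ 0) :
    classInner (fun n : N => χ n) (fun n : N => χ n) = (e : ℂ) ^ 2 * ((inertia hN θ).index : ℂ) := by
  classical
  have hχc := IsIrrCharacter.isCharacter hχ
  have h1 := clifford_restrict hN hχ hθ (by rw [he]; exact_mod_cast he0)
  have h2 : ∀ φ ∈ cliffordOrbit hN θ, classInner (φ : N → ℂ) (fun n : N => χ n) = (e : ℂ) := by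
    intro φ hφ
    obtain ⟨g, hg⟩ := (mem_cliffordOrbit hN θ φ).mp hφ
    rw [← conj_classInner, hg, classInner_restrict_conjFn hN g (IsCharacter.isClassFunction hχc), he]
    simp
  calc classInner (fun n : N => χ n) (fun n : N => χ n)
      = classInner (classInner (fun n : N => χ n) θ • ∑ φ ∈ cliffordOrbit hN θ, (φ : N → ℂ))
          (fun n : N => χ n) := by rw [← h1]
    _ = (e : ℂ) * ∑ φ ∈ cliffordOrbit hN θ, classInner (φ : N → ℂ) (fun n : N => χ n) := by
        rw [he, classInner_smul_left, classInner_sum_left]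
    _ = (e : ℂ) ^ 2 * ((inertia hN θ).index : ℂ) := by
        rw [Finset.sum_congr rfl h2, Finset.sum_const, card_cliffordOrbit hN hθ, nsmul_eq_mul]
        ring

/-- Vanishing off a normal subgroup from invariance of all linear twists. -/
theorem vanish_of_inertia (N M : Subgroup G) [hN : N.Normal] [hM : M.Normal]
    (hcomN : ∀ a ∈ N, ∀ b ∈ N, a * b * a⁻¹ * b⁻¹ ∈ M)
    (hcomG : ∀ a b : G, a * b * a⁻¹ * b⁻¹ ∈ N)
    (y : G) (hfpf : ∀ n ∈ N, y * n * y⁻¹ * n⁻¹ ∈ M → n ∈ M) [Fintype N] (θ : IrrCharacter N)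
    (hstep : ∀ θ' : N → ℂ, IsIrrCharacter N θ' → charDegree θ' = charDegree (θ : N → ℂ) →
      y ∈ inertia hN θ') :
    ∀ n : N, n ∉ M.subgroupOf N → (θ : N → ℂ) n = 0 := by
  classical
  have hθc := IsIrrCharacter.isCharacter θ.2
  set K : Subgroup N := M.subgroupOf N with hK
  haveI hKn : K.Normal := inferInstance
  have hQc : ∀ a b : N ⧸ K, a * b = b * a := by
    intro a b
    obtain ⟨x, rfl⟩ := QuotientGroup.mk_surjective a
    obtain ⟨z, rfl⟩ := QuotientGroup.mk_surjective b
    rw [← commutatorElement_eq_one_iff_mul_comm, ← mk_commutatorElement', QuotientGroup.eq_one_iff, hK,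
      Subgroup.mem_subgroupOf]
    exact hcomN _ x.2 _ z.2
  intro n hn
  rw [hK, Subgroup.mem_subgroupOf] at hn
  by_contra h0
  have hc1 : y * n * y⁻¹ * (n : G)⁻¹ ∈ N := hcomG _ _
  have hc2 : y * n * y⁻¹ * (n : G)⁻¹ ∉ M := fun h => hn (hfpf n n.2 h)
  set c : N := ⟨y * n * y⁻¹ * (n : G)⁻¹, hc1⟩ with hc
  have hc3 : (c : N ⧸ K) ≠ 1 := by
    rw [Ne, QuotientGroup.eq_one_iff, hK, Subgroup.mem_subgroupOf]
    exact hc2
  haveI : Finite (N ⧸ K) := inferInstance
  obtain ⟨l, hl⟩ := exists_hom_ne_one hQc _ hc3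
  let lam : N →* ℂˣ := l.comp (QuotientGroup.mk' K)
  have hμi : IsIrrCharacter N (fun x => (lam x : ℂ)) := isIrrCharacter_of_hom lam
  have hμ1 : (fun x => (lam x : ℂ)) (1 : N) = 1 := by simp
  have hirr := isIrr_mul_linear θ.2 (IsIrrCharacter.isCharacter hμi) hμ1
  have hdeg : charDegree ((θ : N → ℂ) * fun x => (lam x : ℂ)) = charDegree (θ : N → ℂ) := by
    refine charDegree_natCast ?_
    simp only [Pi.mul_apply, map_one, Units.val_one, mul_one]
    exact map_one_eq_charDegree hθc
  have h1 := (mem_inertia_iff hN _ y).mp (hstep _ θ.2 rfl) n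
  have h2 := (mem_inertia_iff hN _ y).mp (hstep _ hirr hdeg) n
  simp only [Pi.mul_apply] at h2
  rw [h1] at h2
  have h3 : lam ⟨y * n * y⁻¹, hN.conj_mem (n : G) n.2 y⟩ = lam n := by
    have h4 := mul_left_cancel₀ h0 h2
    exact Units.ext h4
  have h5 : (⟨y * n * y⁻¹, hN.conj_mem (n : G) n.2 y⟩ : N) = c * n := by
    apply Subtype.ext
    simp [hc]
  rw [h5, map_mul] at h3
  have h6 : lam c = 1 := by simpa using h3
  exact hl h6

/-- A character vanishing off `K`: its restriction has norm the index. -/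
theorem norm_restrict_of_vanish {H : Type u} [Group H] [Fintype H] (K : Subgroup H) [Fintype K]
    {θ : H → ℂ} (hθ : IsIrrCharacter H θ) (hv : ∀ h, h ∉ K → θ h = 0) :
    classInner (fun n : K => θ n) (fun n : K => θ n) = (K.index : ℂ) := by
  have h1 := classInner_irr_self hθ
  rw [classInner_def, sum_eq_sum_subgroup K _ (fun g hg => by rw [hv g hg]; simp)] at h1
  rw [classInner_def]
  have h2 : (Nat.card H : ℂ) ≠ 0 := by exact_mod_cast Nat.card_pos.ne'
  have h3 : (Nat.card K : ℂ) ≠ 0 := by exact_mod_cast Nat.card_pos.ne'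
  have h5 : (K.index : ℂ) * (Nat.card K : ℂ) = Nat.card H := by exact_mod_cast K.index_mul_card
  field_simp at h1 ⊢
  rw [h1, ← h5, mul_comm]

end Clifford

section Main

variable {G : Type u} [Group G] [Fintype G]

/-- The commutator subgroup of a solvable just non-abelian group is abelian. -/
theorem comm_of_solvable {Γ : Type u} [Group Γ] [Finite Γ] (hJ : JustNonAb Γ) [hs : Group.IsSolvable Γ] :
    ∀ a ∈ commutator Γ, ∀ b ∈ commutator Γ, a * b = b * a := by
  classical
  by_cases h0 : cmt (commutator Γ) = ⊥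
  · intro a ha b hb
    have h1 : ⁅(⟨a, ha⟩ : commutator Γ), (⟨b, hb⟩ : commutator Γ)⁆ ∈ commutator (commutator Γ) :=
      Subgroup.commutator_mem_commutator (Subgroup.mem_top _) (Subgroup.mem_top _)
    have h2 : ((⁅(⟨a, ha⟩ : commutator Γ), (⟨b, hb⟩ : commutator Γ)⁆ : commutator Γ) : Γ) ∈
        cmt (commutator Γ) := Subgroup.mem_map_of_mem _ h1
    rw [h0, Subgroup.mem_bot] at h2
    have h3 : ⁅a, b⁆ = 1 := h2
    rwa [commutatorElement_eq_one_iff_mul_comm] at h3
  · exfalso
    have h1 := hJ.le _ inferInstance h0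
    have h2 : cmt (commutator Γ) = ⁅commutator Γ, commutator Γ⁆ := by
      unfold cmt
      exact Subgroup.map_subtype_commutator _
    have h3 : ∀ n : ℕ, commutator Γ ≤ derivedSeries Γ (n + 1) := by
      intro n
      induction n with
      | zero => exact (derivedSeries_one Γ).ge
      | succ n ih =>
        rw [derivedSeries_succ]
        calc commutator Γ ≤ ⁅commutator Γ, commutator Γ⁆ := by rw [← h2]; exact h1
          _ ≤ _ := Subgroup.commutator_mono ih ih
    obtain ⟨n, hn⟩ := hs.solvable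
    have h4 : commutator Γ ≤ ⊥ := by
      have h5 := h3 n
      rw [derivedSeries_succ, hn, Subgroup.commutator_bot_left] at h5
      exact h5
    apply hJ.not_comm
    intro a b
    have h5 : ⁅a, b⁆ ∈ commutator Γ :=
      Subgroup.commutator_mem_commutator (Subgroup.mem_top _) (Subgroup.mem_top _)
    have h6 := h4 h5
    rwa [Subgroup.mem_bot, commutatorElement_eq_one_iff_mul_comm] at h6

/-- The index of the commutator subgroup is prime in the Frobenius case. -/
theorem index_prime {Γ : Type u} [Group Γ] [Fintype Γ] (hJ : JustNonAb Γ)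
    (hZ : Subgroup.center Γ = ⊥) (hab : ∀ a ∈ commutator Γ, ∀ b ∈ commutator Γ, a * b = b * a)
    (hpr : ∀ χ : IrrCharacter Γ, charDegree (χ : Γ → ℂ) ≠ 1 → (charDegree (χ : Γ → ℂ)).Prime) :
    (commutator Γ).index.Prime := by
  classical
  haveI hDn : (commutator Γ).Normal := inferInstance
  haveI : Fintype (commutator Γ) := Fintype.ofFinite _
  have hD0 : commutator Γ ≠ ⊥ := by
    intro h
    apply hJ.not_comm
    intro a b
    have h1 : ⁅a, b⁆ ∈ commutator Γ :=
      Subgroup.commutator_mem_commutator (Subgroup.mem_top _) (Subgroup.mem_top _)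
    rw [h, Subgroup.mem_bot, commutatorElement_eq_one_iff_mul_comm] at h1
    exact h1
  obtain ⟨⟨a, ha⟩, ha1⟩ := Subgroup.ne_bot_iff_exists_ne_one.mp hD0
  have hcm : ∀ x y : commutator Γ, x * y = y * x := fun x y => Subtype.ext (hab x x.2 y y.2)
  obtain ⟨l, hl⟩ := exists_hom_ne_one hcm _ ha1
  have hθi : IsIrrCharacter (commutator Γ) (fun d => (l d : ℂ)) := isIrrCharacter_of_hom l
  have hθc := IsIrrCharacter.isCharacter hθi
  obtain ⟨χ, hχ⟩ := exists_above (commutator Γ) ⟨_, hθi⟩
  obtain ⟨e, he⟩ := classInner_isCharacter_nat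
    (IsCharacter.restrict (commutator Γ) (IsIrrCharacter.isCharacter χ.2)) hθc
  have he0 : e ≠ 0 := by
    rintro rfl
    apply hχ
    simpa using he
  have hdeg := clifford_degree hDn χ.2 hθi he he0
  have hdθ : charDegree (fun d => (l d : ℂ)) = 1 := charDegree_natCast (n := 1) (by simp)
  rw [hdθ, mul_one] at hdeg
  have hT : inertia hDn (fun d => (l d : ℂ)) = commutator Γ := by
    apply le_antisymm
    · intro y hy
      by_contra hyD
      have hfp := frob_fpf hJ hZ hab hyD
      apply hl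
      obtain ⟨d, hd, hc⟩ := frob_surj hfp a ha
      have h1 := (mem_inertia_iff hDn _ y).mp hy ⟨d, hd⟩
      have h2 : l ⟨y * d * y⁻¹, hDn.conj_mem d hd y⟩ = l ⟨d, hd⟩ := Units.ext h1
      have h3 : (⟨a, ha⟩ : commutator Γ) = ⟨y * d * y⁻¹, hDn.conj_mem d hd y⟩ * (⟨d, hd⟩)⁻¹ := by
        apply Subtype.ext
        simpa using hc.symm
      rw [h3, map_mul, map_inv, h2]
      simp
    · exact le_inertia hDn (IsCharacter.isClassFunction hθc)
  rw [hT] at hdeg
  have hne1 : (commutator Γ).index ≠ 1 := by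
    intro h
    have htop := Subgroup.index_eq_one.mp h
    apply hJ.not_comm
    intro x y
    exact hab x (by rw [htop]; trivial) y (by rw [htop]; trivial)
  have hdne : charDegree (χ : Γ → ℂ) ≠ 1 := by
    rw [hdeg]
    intro h
    exact hne1 (Nat.eq_one_of_mul_eq_one_left h)
  have hp := hpr χ hdne
  rw [hdeg] at hp
  have hne2 : e ≠ 1 → False := by
    intro h
    have := Nat.not_prime_mul h hne1
    exact this hp
  have he1 : e = 1 := by
    by_contra h
    exact hne2 h
  rwa [he1, one_mul] at hp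

/-- The degree analysis of `N`. -/
theorem degree_of_index (N M : Subgroup G) [hN : N.Normal] [hM : M.Normal] (hMN : M ≤ N)
    (hne : M ≠ N) [Fintype N]
    (hcomN : ∀ a ∈ N, ∀ b ∈ N, a * b * a⁻¹ * b⁻¹ ∈ M)
    (hcomG : ∀ a b : G, a * b * a⁻¹ * b⁻¹ ∈ N)
    (y : G) (hfpf : ∀ n ∈ N, y * n * y⁻¹ * n⁻¹ ∈ M → n ∈ M)
    (hpr : ∀ χ : IrrCharacter G, charDegree (χ : G → ℂ) ≠ 1 → (charDegree (χ : G → ℂ)).Prime)
    (θ : IrrCharacter N) (hθ1 : charDegree (θ : N → ℂ) ≠ 1) :
    (charDegree (θ : N → ℂ)).Prime ∧ (charDegree (θ : N → ℂ) = (M.subgroupOf N).index ∨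
      charDegree (θ : N → ℂ) ^ 2 = (M.subgroupOf N).index) := by
  classical
  -- invariance of nonlinear characters
  have hinv : ∀ θ' : N → ℂ, IsIrrCharacter N θ' → charDegree θ' ≠ 1 →
      (charDegree θ').Prime ∧ inertia hN θ' = ⊤ := by
    intro θ' hθ' hd
    have hθ'c := IsIrrCharacter.isCharacter hθ'
    obtain ⟨χ, hχ⟩ := exists_above N ⟨θ', hθ'⟩
    obtain ⟨e, he⟩ := classInner_isCharacter_nat
      (IsCharacter.restrict N (IsIrrCharacter.isCharacter χ.2)) hθ'c
    have he0 : e ≠ 0 := by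
      rintro rfl
      apply hχ
      simpa using he
    have hdeg := clifford_degree hN χ.2 hθ' he he0
    have hdne : charDegree (χ : G → ℂ) ≠ 1 := by
      rw [hdeg]
      intro h
      exact hd (Nat.eq_one_of_mul_eq_one_left h)
    have hp := hpr χ hdne
    rw [hdeg] at hp
    have h1 : e * (inertia hN θ').index = 1 := by
      by_contra h
      exact Nat.not_prime_mul h hd hp
    have h2 : (inertia hN θ').index = 1 := Nat.eq_one_of_mul_eq_one_left h1
    have h3 : e = 1 := Nat.eq_one_of_mul_eq_one_right h1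
    refine ⟨?_, Subgroup.index_eq_one.mp h2⟩
    rwa [h1, one_mul] at hp
  obtain ⟨hδ, -⟩ := hinv _ θ.2 hθ1
  have hv := vanish_of_inertia N M hcomN hcomG y hfpf θ (by
    intro θ' hθ' hd
    rw [(hinv θ' hθ' (by rw [hd]; exact hθ1)).2]
    trivial)
  refine ⟨hδ, ?_⟩
  set K : Subgroup N := M.subgroupOf N with hK
  haveI : K.Normal := inferInstance
  haveI : Fintype K := Fintype.ofFinite K
  have hnorm := norm_restrict_of_vanish K θ.2 hv
  obtain ⟨β, hβ⟩ := Cfsg.Agent.Lib.Block.exists_constituent K θ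
  obtain ⟨e, he⟩ := classInner_isCharacter_nat
    (IsCharacter.restrict K (IsIrrCharacter.isCharacter θ.2)) (IsIrrCharacter.isCharacter β.2)
  have he0 : e ≠ 0 := by
    rintro rfl
    apply hβ
    simpa using he
  have hKn : K.Normal := inferInstance
  have hdeg := clifford_degree hKn θ.2 β.2 he he0
  have hn := clifford_norm hKn θ.2 β.2 he he0
  rw [hnorm] at hn
  have hn' : K.index = e ^ 2 * (inertia hKn (β : K → ℂ)).index := by exact_mod_cast hn
  set t := (inertia hKn (β : K → ℂ)).index with ht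
  have hK1 : K.index ≠ 1 := by
    intro h
    have h1 := Subgroup.index_eq_one.mp h
    rw [hK, Subgroup.subgroupOf_eq_top] at h1
    exact hne (le_antisymm hMN h1)
  set δ := charDegree (θ : N → ℂ) with hδd
  by_cases hβ1 : charDegree (β : K → ℂ) = 1
  · rw [hβ1, mul_one] at hdeg
    -- `δ = e * t` is prime
    rcases (Nat.prime_mul_iff.mp (hdeg ▸ hδ)) with ⟨h1, h2⟩ | ⟨h1, h2⟩
    · -- `t = 1`
      right
      rw [hn', h2, mul_one, hdeg, h2, mul_one]
    · -- `e = 1`
      left
      rw [hn', h2, one_pow, one_mul, hdeg, h2, one_mul]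
  · exfalso
    have h1 : e * t = 1 := by
      by_contra h
      rw [hdeg] at hδ
      exact Nat.not_prime_mul h hβ1 hδ
    have h2 : t = 1 := Nat.eq_one_of_mul_eq_one_left h1
    have h3 : e = 1 := Nat.eq_one_of_mul_eq_one_right h1
    apply hK1
    rw [hn', h2, h3]
    simp

/-- At most three degrees. -/
theorem three_degrees_of_prime
    (hpr : ∀ χ : IrrCharacter G, charDegree (χ : G → ℂ) ≠ 1 → (charDegree (χ : G → ℂ)).Prime) :
    ∃ a b : ℕ, ∀ χ : IrrCharacter G, charDegree (χ : G → ℂ) = 1 ∨ charDegree (χ : G → ℂ) = a ∨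
      charDegree (χ : G → ℂ) = b := by
  classical
  by_cases hcomm : ∀ x y : G, x * y = y * x
  · refine ⟨1, 1, fun χ => Or.inl ?_⟩
    have h1 := charDegree_eq_one_of_comm hcomm χ.2
    exact charDegree_natCast (n := 1) (by simpa using h1)
  obtain ⟨K, hK, hJ⟩ := exists_justNonAb hcomm
  haveI := hK
  haveI : Fintype (G ⧸ K) := Fintype.ofFinite _
  haveI hsolvG : Group.IsSolvable G := Cfsg.Agent.S4466.result hpr
  haveI hsolvQ : Group.IsSolvable (G ⧸ K) := inferInstance
  have hprQ : ∀ χ : IrrCharacter (G ⧸ K), charDegree (χ : G ⧸ K → ℂ) ≠ 1 →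
      (charDegree (χ : G ⧸ K → ℂ)).Prime := by
    intro χ h
    have h1 := hpr (Degree.inflate K χ)
    rw [charDegree_inflate] at h1
    exact h1 h
  by_cases hZ : Subgroup.center (G ⧸ K) = ⊥
  · have hab := comm_of_solvable hJ
    have hp := index_prime hJ hZ hab hprQ
    set D := commutator (G ⧸ K) with hD
    have hD0 : D ≠ ⊥ := by
      intro h
      apply hJ.not_comm
      intro a b
      have h1 : ⁅a, b⁆ ∈ commutator (G ⧸ K) :=
        Subgroup.commutator_mem_commutator (Subgroup.mem_top _) (Subgroup.mem_top _)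
      rw [← hD, h, Subgroup.mem_bot, commutatorElement_eq_one_iff_mul_comm] at h1
      exact h1
    set N : Subgroup G := D.comap (QuotientGroup.mk' K) with hN
    haveI hNn : N.Normal := Subgroup.Normal.comap inferInstance _
    haveI : Fintype N := Fintype.ofFinite N
    have hmem : ∀ x : G, x ∈ N ↔ (x : G ⧸ K) ∈ D := fun x => Iff.rfl
    have hcm : ∀ a b : G, a * b * a⁻¹ * b⁻¹ = ⁅a, b⁆ := fun a b => rfl
    have hKN : K ≤ N := by
      intro x hx
      rw [hmem, (QuotientGroup.eq_one_iff x).mpr hx]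
      exact Subgroup.one_mem _
    have hidx : N.index = D.index :=
      Subgroup.index_comap_of_surjective _ (QuotientGroup.mk'_surjective K)
    have hcomG : ∀ a b : G, a * b * a⁻¹ * b⁻¹ ∈ N := by
      intro a b
      rw [hcm, hmem, mk_commutatorElement']
      exact Subgroup.commutator_mem_commutator (Subgroup.mem_top _) (Subgroup.mem_top _)
    have hcomN : ∀ a ∈ N, ∀ b ∈ N, a * b * a⁻¹ * b⁻¹ ∈ K := by
      intro a ha b hb
      rw [hcm, ← QuotientGroup.eq_one_iff, mk_commutatorElement', commutatorElement_eq_one_iff_mul_comm]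
      exact hab _ ((hmem a).mp ha) _ ((hmem b).mp hb)
    have hne : K ≠ N := by
      intro h
      apply hD0
      rw [eq_bot_iff]
      intro q hq
      obtain ⟨x, rfl⟩ := QuotientGroup.mk_surjective q
      have h1 : x ∈ N := (hmem x).mpr hq
      rw [← h] at h1
      rw [Subgroup.mem_bot]
      exact (QuotientGroup.eq_one_iff x).mpr h1
    have hNtop : N ≠ ⊤ := by
      intro h
      rw [h, Subgroup.index_top] at hidx
      rw [← hidx] at hp
      exact Nat.not_prime_one hp
    obtain ⟨y, hy⟩ : ∃ y : G, y ∉ N := by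
      by_contra hcon
      push Not at hcon
      exact hNtop (eq_top_iff.mpr fun x _ => hcon x)
    have hfpf : ∀ n ∈ N, y * n * y⁻¹ * n⁻¹ ∈ K → n ∈ K := by
      intro n hn h
      have h1 : (y : G ⧸ K) ∉ D := fun h2 => hy ((hmem y).mpr h2)
      have h2 := frob_fpf hJ hZ hab h1 _ ((hmem n).mp hn)
      rw [← QuotientGroup.eq_one_iff]
      apply h2
      rw [hcm, ← QuotientGroup.eq_one_iff, mk_commutatorElement', commutatorElement_eq_one_iff_mul_comm] at h
      exact h.symm
    have hdeg := degree_of_index N K hKN hne hcomN hcomG y hfpf hpr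
    -- at most one nonlinear degree on `N`
    obtain ⟨δ, hδ⟩ : ∃ δ : ℕ, ∀ θ : IrrCharacter N, charDegree (θ : N → ℂ) = 1 ∨
        charDegree (θ : N → ℂ) = δ := by
      by_cases hex : ∃ θ₁ : IrrCharacter N, charDegree (θ₁ : N → ℂ) ≠ 1
      · obtain ⟨θ₁, hθ₁⟩ := hex
        refine ⟨charDegree (θ₁ : N → ℂ), fun θ => ?_⟩
        by_cases hθ : charDegree (θ : N → ℂ) = 1
        · exact Or.inl hθ
        · right
          obtain ⟨h1, h2⟩ := hdeg θ hθ
          obtain ⟨h3, h4⟩ := hdeg θ₁ hθ₁
          have hk : charDegree (θ : N → ℂ) ∣ (K.subgroupOf N).index := by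
            rcases h2 with h | h
            · rw [← h]
            · rw [← h]
              exact dvd_pow_self _ two_ne_zero
          have hk' : ∃ i, (K.subgroupOf N).index = charDegree (θ₁ : N → ℂ) ^ i := by
            rcases h4 with h | h
            · exact ⟨1, by rw [← h, pow_one]⟩
            · exact ⟨2, h.symm⟩
          obtain ⟨i, hi⟩ := hk'
          rw [hi] at hk
          exact (Nat.prime_dvd_prime_iff_eq h1 h3).mp (h1.dvd_of_dvd_pow hk)
      · push Not at hex
        exact ⟨1, fun θ => Or.inl (hex θ)⟩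
    refine ⟨D.index, δ, fun χ => ?_⟩
    by_cases hχ1 : charDegree (χ : G → ℂ) = 1
    · exact Or.inl hχ1
    right
    have hχp := hpr χ hχ1
    obtain ⟨θ, hθ⟩ := Cfsg.Agent.Lib.Block.exists_constituent N χ
    obtain ⟨h1, h2⟩ := Cfsg.Agent.S0887.result N (χ : G → ℂ) χ.2 (θ : N → ℂ) θ.2 hθ _ _
      (map_one_eq_charDegree (IsIrrCharacter.isCharacter χ.2))
      (map_one_eq_charDegree (IsIrrCharacter.isCharacter θ.2))
    by_cases hθ1 : charDegree (θ : N → ℂ) = 1
    · left
      rw [hθ1, Nat.div_one, hidx] at h2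
      exact ((Nat.prime_dvd_prime_iff_eq hχp hp).mp h2)
    · right
      have h3 : charDegree (θ : N → ℂ) = δ := (hδ θ).resolve_left hθ1
      rcases (Nat.dvd_prime hχp).mp h1 with h4 | h4
      · exact absurd h4 hθ1
      · rw [← h4, h3]
  · -- the case of nontrivial center
    obtain ⟨χ₀, hm1⟩ : ∃ χ₀ : IrrCharacter (G ⧸ K), charDegree (χ₀ : G ⧸ K → ℂ) ≠ 1 := by
      by_contra hcon
      push Not at hcon
      apply hJ.not_comm
      apply comm_iff_forall_irr_degree_one.mpr
      intro χ
      rw [map_one_eq_charDegree (IsIrrCharacter.isCharacter χ.2), hcon χ]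
      simp
    set m := charDegree (χ₀ : G ⧸ K → ℂ) with hm
    have hmp : m.Prime := hprQ χ₀ hm1
    refine ⟨m, m, fun τ => ?_⟩
    by_cases hτ1 : charDegree (τ : G → ℂ) = 1
    · exact Or.inl hτ1
    by_cases hτm : charDegree (τ : G → ℂ) = m
    · exact Or.inr (Or.inl hτm)
    exfalso
    have hτp := hpr τ hτ1
    have hcop : Nat.Coprime m (charDegree (τ : G → ℂ)) :=
      (Nat.coprime_primes hmp hτp).mpr (fun h => hτm h.symm)
    have hDZ := hJ.le _ inferInstance hZ
    let Y : Subgroup G := (Subgroup.center (G ⧸ K)).comap (QuotientGroup.mk' K)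
    haveI : Y.Normal := Subgroup.Normal.comap inferInstance _
    haveI : Fintype Y := Fintype.ofFinite Y
    let χ := Degree.inflate K χ₀
    have hdχ : charDegree (χ : G → ℂ) = m := charDegree_inflate K χ₀
    have hirr := mul_irr_of_vanish Y χ.2 τ.2 (fun g hg => vanish_off_center hJ hDZ χ₀.2 hm1 (g : G ⧸ K) hg)
      (fun y hy => by rw [hdχ, hm]; exact norm_on_center χ₀.2 (y : G ⧸ K) hy)
      (by rw [hdχ]; exact hcop.symm)
    have hd : charDegree ((χ : G → ℂ) * (τ : G → ℂ)) = m * charDegree (τ : G → ℂ) := by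
      refine charDegree_natCast ?_
      simp only [Pi.mul_apply, Nat.cast_mul]
      rw [map_one_eq_charDegree (IsIrrCharacter.isCharacter χ.2),
        map_one_eq_charDegree (IsIrrCharacter.isCharacter τ.2), hdχ]
    have hne1 : m * charDegree (τ : G → ℂ) ≠ 1 := by
      intro h
      exact hτ1 (Nat.eq_one_of_mul_eq_one_left h)
    have hp2 := hpr ⟨_, hirr⟩ (by
      show charDegree ((χ : G → ℂ) * (τ : G → ℂ)) ≠ 1
      rw [hd]; exact hne1)
    have hp3 : (m * charDegree (τ : G → ℂ)).Prime := by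
      have : charDegree ((χ : G → ℂ) * (τ : G → ℂ)) = m * charDegree (τ : G → ℂ) := hd
      rw [← this]; exact hp2
    exact Nat.not_prime_mul hm1 hτ1 hp3

end Main

end Cfsg.Agent.Lib.Deg3
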