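import Cfsg.Agent.Lib.Deg3.Prime
import Cfsg.Agent.Lib.Char.OddOrder
import Cfsg.Agent.Lib.Char.Brauer

/-!
# Three character degrees: coprime degrees and products of characters
-/

set_option autoImplicit false
set_option linter.unusedSectionVars false
set_option linter.unusedVariables false
set_option linter.unusedSimpArgs false

open Cfsg Cfsg.Agent.Lib.Char
open scoped commutatorElement ComplexConjugate

namespace Cfsg.Agent.Lib.Deg3

universe u

variable {G : Type u} [Group G] [Fintype G]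

/-- Moving a factor across the inner product. -/
theorem classInner_mul_swap (φ ψ γ : G → ℂ) :
    classInner (φ * ψ) γ = classInner φ (γ * fun g => conj (ψ g)) := by
  rw [classInner_def, classInner_def]
  congr 1
  refine Finset.sum_congr rfl fun g _ => ?_
  simp only [Pi.mul_apply, map_mul, Complex.conj_conj]
  ring

/-- A natural-number inner product of `φ ψ` with `γ` equals that of `γ ψ̄` with `φ`. -/
theorem classInner_mul_swap' {φ ψ γ : G → ℂ} (hφ : IsCharacter G φ) (hψ : IsCharacter G ψ)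
    (hγ : IsCharacter G γ) :
    classInner (φ * ψ) γ = classInner (γ * fun g => conj (ψ g)) φ := by
  obtain ⟨n, hn⟩ := classInner_isCharacter_nat (IsCharacter.mul hφ hψ) hγ
  rw [hn]
  have h1 := classInner_mul_swap φ ψ γ
  rw [hn] at h1
  rw [← conj_classInner, ← h1]
  simp

/-- Irreducible `×` linear has no linear constituents when degrees differ. -/
theorem classInner_mul_linear_eq_zero {χ ψ γ : G → ℂ} (hχ : IsIrrCharacter G χ) (hψ : IsIrrCharacter G ψ)
    (hγ : IsIrrCharacter G γ) (h1 : γ 1 = 1) (hne : charDegree χ ≠ charDegree ψ) :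
    classInner (χ * ψ) γ = 0 := by
  have h2 : IsIrrCharacter G (γ * fun g => conj (ψ g)) := by
    rw [mul_comm]
    exact isIrr_mul_linear (isIrr_conj hψ) (IsIrrCharacter.isCharacter hγ) h1
  rw [classInner_mul_swap]
  refine classInner_irr_of_ne hχ h2 ?_
  intro h
  apply hne
  rw [h]
  have h3 : (γ * fun g => conj (ψ g)) 1 = ψ 1 := by
    simp only [Pi.mul_apply, h1, one_mul]
    rw [map_one_eq_charDegree (IsIrrCharacter.isCharacter hψ), Complex.conj_natCast]
  simp only [charDegree, h3]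

theorem nat_split {α β s t : ℕ} (hαβ : Nat.Coprime α β) (hα : 0 < α) (hβ : 0 < β)
    (h : α * β = α * s + β * t) : (t = 0 ∧ s = β) ∨ (s = 0 ∧ t = α) := by
  have h1 : β ∣ α * s := by
    have h2 : β ∣ α * s + β * t := by rw [← h]; exact dvd_mul_left _ _
    exact (Nat.dvd_add_left (dvd_mul_right _ _)).mp h2
  have h3 : α ∣ β * t := by
    have h2 : α ∣ α * s + β * t := by rw [← h]; exact dvd_mul_right _ _
    exact (Nat.dvd_add_right (dvd_mul_right _ _)).mp h2
  obtain ⟨s', rfl⟩ := hαβ.symm.dvd_of_dvd_mul_left h1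
  obtain ⟨t', rfl⟩ := hαβ.dvd_of_dvd_mul_left h3
  have h4 : α * β * 1 = α * β * (s' + t') := by
    calc α * β * 1 = α * β := mul_one _
      _ = α * (β * s') + β * (α * t') := h
      _ = α * β * (s' + t') := by ring
  have h5 := Nat.eq_of_mul_eq_mul_left (Nat.mul_pos hα hβ) h4
  have h6 : (s' = 0 ∧ t' = 1) ∨ (s' = 1 ∧ t' = 0) := by omega
  rcases h6 with ⟨rfl, rfl⟩ | ⟨rfl, rfl⟩
  · right
    simp
  · left
    simp

/-- The dichotomy for products of characters of coprime degrees. -/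
theorem dich {α β : ℕ} (hcop : Nat.Coprime α β) (h1α : 1 < α) (h1β : 1 < β)
    (hcd : ∀ γ : IrrCharacter G, charDegree (γ : G → ℂ) = 1 ∨ charDegree (γ : G → ℂ) = α ∨
      charDegree (γ : G → ℂ) = β)
    {χ ψ : G → ℂ} (hχ : IsIrrCharacter G χ) (hψ : IsIrrCharacter G ψ) (hdχ : charDegree χ = α)
    (hdψ : charDegree ψ = β) :
    ((∀ δ : IrrCharacter G, charDegree (δ : G → ℂ) = β → classInner (χ * ψ) (δ : G → ℂ) = 0) ∧
      ∑ γ : IrrCharacter G, (if charDegree (γ : G → ℂ) = α then classInner (χ * ψ) (γ : G → ℂ) else 0)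
        = (β : ℂ)) ∨
    ((∀ δ : IrrCharacter G, charDegree (δ : G → ℂ) = α → classInner (χ * ψ) (δ : G → ℂ) = 0) ∧
      ∑ γ : IrrCharacter G, (if charDegree (γ : G → ℂ) = β then classInner (χ * ψ) (γ : G → ℂ) else 0)
        = (α : ℂ)) := by
  classical
  have hαβ : α ≠ β := by
    rintro rfl
    have := Nat.coprime_self α |>.mp hcop
    omega
  have hf : IsCharacter G (χ * ψ) :=
    IsCharacter.mul (IsIrrCharacter.isCharacter hχ) (IsIrrCharacter.isCharacter hψ)
  choose n hn using fun γ : IrrCharacter G =>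
    classInner_isCharacter_nat hf (IsIrrCharacter.isCharacter γ.2)
  have hlin : ∀ γ : IrrCharacter G, charDegree (γ : G → ℂ) = 1 → n γ = 0 := by
    intro γ hγ
    have h1 : (γ : G → ℂ) 1 = 1 := by
      rw [map_one_eq_charDegree (IsIrrCharacter.isCharacter γ.2), hγ]
      simp
    have h2 := classInner_mul_linear_eq_zero hχ hψ γ.2 h1 (by rw [hdχ, hdψ]; exact hαβ)
    rw [hn γ] at h2
    exact_mod_cast h2
  have hsum : α * β = ∑ γ : IrrCharacter G, n γ * charDegree (γ : G → ℂ) := by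
    have h1 := congrFun (classFunction_eq_sum (χ * ψ) (IsCharacter.isClassFunction hf)) 1
    rw [Finset.sum_apply] at h1
    have h2 : ∀ γ : IrrCharacter G, (classInner (χ * ψ) (γ : G → ℂ) • (γ : G → ℂ)) 1 =
        ((n γ * charDegree (γ : G → ℂ) : ℕ) : ℂ) := by
      intro γ
      rw [hn γ, Pi.smul_apply, smul_eq_mul, map_one_eq_charDegree (IsIrrCharacter.isCharacter γ.2)]
      push_cast
      rfl
    rw [Finset.sum_congr rfl fun γ _ => h2 γ, Pi.mul_apply,
      map_one_eq_charDegree (IsIrrCharacter.isCharacter hχ),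
      map_one_eq_charDegree (IsIrrCharacter.isCharacter hψ), hdχ, hdψ] at h1
    exact_mod_cast h1
  set s := ∑ γ : IrrCharacter G, (if charDegree (γ : G → ℂ) = α then n γ else 0) with hs
  set t := ∑ γ : IrrCharacter G, (if charDegree (γ : G → ℂ) = β then n γ else 0) with ht
  have hst : α * β = α * s + β * t := by
    rw [hsum, hs, ht, Finset.mul_sum, Finset.mul_sum, ← Finset.sum_add_distrib]
    refine Finset.sum_congr rfl fun γ _ => ?_
    rcases hcd γ with h | h | h
    · have h3 : 1 ≠ α := by omega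
      have h4 : 1 ≠ β := by omega
      simp [h, h3, h4, hlin γ h]
    · simp [h, hαβ, mul_comm]
    · simp [h, hαβ.symm, mul_comm]
  have hsC : ∑ γ : IrrCharacter G, (if charDegree (γ : G → ℂ) = α then classInner (χ * ψ) (γ : G → ℂ) else 0)
      = (s : ℂ) := by
    rw [hs]
    push_cast
    refine Finset.sum_congr rfl fun γ _ => ?_
    by_cases h : charDegree (γ : G → ℂ) = α
    · rw [if_pos h, if_pos h, hn γ]
    · rw [if_neg h, if_neg h]
  have htC : ∑ γ : IrrCharacter G, (if charDegree (γ : G → ℂ) = β then classInner (χ * ψ) (γ : G → ℂ) else 0)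
      = (t : ℂ) := by
    rw [ht]
    push_cast
    refine Finset.sum_congr rfl fun γ _ => ?_
    by_cases h : charDegree (γ : G → ℂ) = β
    · rw [if_pos h, if_pos h, hn γ]
    · rw [if_neg h, if_neg h]
  rcases nat_split hcop (by omega) (by omega) hst with ⟨h0, h1⟩ | ⟨h0, h1⟩
  · left
    refine ⟨fun δ hδ => ?_, by rw [hsC, h1]⟩
    rw [hn δ]
    have h2 := (Finset.sum_eq_zero_iff_of_nonneg (fun _ _ => Nat.zero_le _)).mp (ht ▸ h0) δ
      (Finset.mem_univ _)
    rw [if_pos hδ] at h2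
    simp [h2]
  · right
    refine ⟨fun δ hδ => ?_, by rw [htC, h1]⟩
    rw [hn δ]
    have h2 := (Finset.sum_eq_zero_iff_of_nonneg (fun _ _ => Nat.zero_le _)).mp (hs ▸ h0) δ
      (Finset.mem_univ _)
    rw [if_pos hδ] at h2
    simp [h2]

open Classical in
/-- The characters of degree `α` whose product with `ψ` has only constituents of degree `α`. -/
noncomputable def typeI (α β : ℕ) (ψ : G → ℂ) : Finset (IrrCharacter G) :=
  Finset.univ.filter fun γ => charDegree (γ : G → ℂ) = α ∧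
    ∀ δ : IrrCharacter G, charDegree (δ : G → ℂ) = β → classInner ((γ : G → ℂ) * ψ) (δ : G → ℂ) = 0

theorem charDegree_conj {ψ : G → ℂ} (hψ : IsIrrCharacter G ψ) :
    charDegree (fun g => conj (ψ g)) = charDegree ψ := by
  have h1 := map_one_eq_charDegree (IsIrrCharacter.isCharacter hψ)
  have h3 : (fun g => conj (ψ g)) 1 = ψ 1 := by
    change conj (ψ 1) = ψ 1
    rw [h1, Complex.conj_natCast]
  simp only [charDegree, h3]

/-- The sum over `typeI` is an eigenfunction. -/
theorem sum_typeI_mul {α β : ℕ} (hcop : Nat.Coprime α β) (h1α : 1 < α) (h1β : 1 < β)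
    (hcd : ∀ γ : IrrCharacter G, charDegree (γ : G → ℂ) = 1 ∨ charDegree (γ : G → ℂ) = α ∨
      charDegree (γ : G → ℂ) = β)
    {ψ : G → ℂ} (hψ : IsIrrCharacter G ψ) (hdψ : charDegree ψ = β) :
    (∑ χ ∈ typeI α β ψ, (χ : G → ℂ)) * ψ =
      (β : ℂ) • ∑ χ ∈ typeI α β (fun g => conj (ψ g)), (χ : G → ℂ) := by
  classical
  have hαβ : α ≠ β := by
    rintro rfl
    have := Nat.coprime_self α |>.mp hcop
    omega
  set ψ₁ : G → ℂ := fun g => conj (ψ g) with hψ₁
  have hψ₁i : IsIrrCharacter G ψ₁ := isIrr_conj hψ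
  have hdψ₁ : charDegree ψ₁ = β := by rw [hψ₁, charDegree_conj hψ, hdψ]
  have hψc := IsIrrCharacter.isCharacter hψ
  have hψ₁c := IsIrrCharacter.isCharacter hψ₁i
  have hcl1 : IsClassFunction G ((∑ χ ∈ typeI α β ψ, (χ : G → ℂ)) * ψ) := by
    refine IsCharacter.isClassFunction (IsCharacter.mul (IsCharacter.sum _ fun χ _ =>
      IsIrrCharacter.isCharacter χ.2) hψc)
  have hcl2 : IsClassFunction G ((β : ℂ) • ∑ χ ∈ typeI α β ψ₁, (χ : G → ℂ)) := by
    intro g h
    have := IsCharacter.isClassFunction (IsCharacter.sum (G := G) (typeI α β ψ₁)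
      (f := fun χ => (χ : G → ℂ)) fun χ _ => IsIrrCharacter.isCharacter χ.2) g h
    simp only [Pi.smul_apply, this]
  refine classFunction_ext hcl1 hcl2 fun γ₀ hγ₀ => ?_
  set γ : IrrCharacter G := ⟨γ₀, hγ₀⟩ with hγ
  have hγc := IsIrrCharacter.isCharacter hγ₀
  rw [Finset.sum_mul, classInner_sum_left, classInner_smul_left, classInner_sum_left]
  have hswap : ∀ χ : IrrCharacter G, classInner ((χ : G → ℂ) * ψ) γ₀ =
      classInner (γ₀ * ψ₁) (χ : G → ℂ) :=
    fun χ => classInner_mul_swap' (IsIrrCharacter.isCharacter χ.2) hψc hγc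
  have hr : ∑ χ ∈ typeI α β ψ₁, classInner (χ : G → ℂ) γ₀ = if γ ∈ typeI α β ψ₁ then 1 else 0 := by
    by_cases hmem : γ ∈ typeI α β ψ₁
    · rw [if_pos hmem, Finset.sum_eq_single_of_mem γ hmem]
      · exact classInner_irr_self γ.2
      · intro χ _ hne
        refine classInner_irr_of_ne χ.2 hγ₀ fun h => hne (Subtype.ext h)
    · rw [if_neg hmem]
      refine Finset.sum_eq_zero fun χ hχ => ?_
      refine classInner_irr_of_ne χ.2 hγ₀ fun h => hmem ?_
      have : χ = γ := Subtype.ext h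
      rwa [← this]
  rw [hr]
  by_cases hmem : γ ∈ typeI α β ψ₁
  · -- `γ` has degree `α`, and its product with `ψ₁` has no constituents of degree `β`
    rw [if_pos hmem, mul_one]
    have hm := Finset.mem_filter.mp hmem
    obtain ⟨hdγ, hγ0⟩ := hm.2
    have hd := dich hcop h1α h1β hcd hγ₀ hψ₁i hdγ hdψ₁
    have hfirst : ∑ χ : IrrCharacter G, (if charDegree (χ : G → ℂ) = α then
        classInner (γ₀ * ψ₁) (χ : G → ℂ) else 0) = (β : ℂ) := by
      rcases hd with hd | hd
      · exact hd.2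
      · exfalso
        have h2 := hd.2
        rw [Finset.sum_eq_zero] at h2
        · have h3 : α ≠ 0 := by omega
          exact h3 (by exact_mod_cast h2.symm)
        · intro χ _
          by_cases h : charDegree (χ : G → ℂ) = β
          · rw [if_pos h]
            exact hγ0 χ h
          · rw [if_neg h]
    rw [← hfirst]
    have hfil : ∑ χ : IrrCharacter G, (if charDegree (χ : G → ℂ) = α then
        classInner (γ₀ * ψ₁) (χ : G → ℂ) else 0) =
        ∑ χ ∈ typeI α β ψ, (if charDegree (χ : G → ℂ) = α then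
        classInner (γ₀ * ψ₁) (χ : G → ℂ) else 0) := by
      symm
      refine Finset.sum_subset (Finset.subset_univ _) fun χ _ hχ => ?_
      by_cases h : charDegree (χ : G → ℂ) = α
      · rw [if_pos h, ← hswap χ]
        -- `χ ∉ I₀` so second alternative for `χ, ψ`
        have hdχ := dich hcop h1α h1β hcd χ.2 hψ h hdψ
        rcases hdχ with hdχ | hdχ
        · exfalso
          exact hχ (Finset.mem_filter.mpr ⟨Finset.mem_univ _, h, hdχ.1⟩)
        · exact hdχ.1 γ hdγ
      · rw [if_neg h]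
    rw [hfil]
    refine Finset.sum_congr rfl fun χ hχ => ?_
    have hχd := (Finset.mem_filter.mp hχ).2.1
    rw [if_pos hχd, hswap χ]
  · rw [if_neg hmem, mul_zero]
    refine Finset.sum_eq_zero fun χ hχ => ?_
    have hχd := (Finset.mem_filter.mp hχ).2
    rcases hcd γ with h | h | h
    · have h2 : γ₀ 1 = 1 := by
        rw [map_one_eq_charDegree hγc, show charDegree γ₀ = 1 from h]
        simp
      exact classInner_mul_linear_eq_zero χ.2 hψ hγ₀ h2 (by rw [hχd.1, hdψ]; exact hαβ)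
    · -- degree `α`: `γ ∉ I₁`
      have hd := dich hcop h1α h1β hcd hγ₀ hψ₁i h hdψ₁
      rcases hd with hd | hd
      · exact absurd (Finset.mem_filter.mpr ⟨Finset.mem_univ _, h, hd.1⟩) hmem
      · rw [hswap χ]
        exact hd.1 χ hχd.1
    · exact hχd.2 γ h

/-- The set of characters in `typeI` is empty when the norm condition holds. -/
theorem no_type_one {α β : ℕ} (hcop : Nat.Coprime α β) (h1α : 1 < α) (h1β : 1 < β)
    (hcd : ∀ γ : IrrCharacter G, charDegree (γ : G → ℂ) = 1 ∨ charDegree (γ : G → ℂ) = α ∨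
      charDegree (γ : G → ℂ) = β)
    {ψ : G → ℂ} (hψ : IsIrrCharacter G ψ) (hdψ : charDegree ψ = β)
    (hnorm : ∀ g : G, g ≠ 1 → ψ g * conj (ψ g) ≠ (β : ℂ) ^ 2)
    (χ : IrrCharacter G) (hdχ : charDegree (χ : G → ℂ) = α)
    (h0 : ∀ δ : IrrCharacter G, charDegree (δ : G → ℂ) = β →
      classInner ((χ : G → ℂ) * ψ) (δ : G → ℂ) = 0) : False := by
  classical
  set ψ₁ : G → ℂ := fun g => conj (ψ g) with hψ₁
  have hψ₁i : IsIrrCharacter G ψ₁ := isIrr_conj hψ
  have hdψ₁ : charDegree ψ₁ = β := by rw [hψ₁, charDegree_conj hψ, hdψ]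
  have h1 := sum_typeI_mul hcop h1α h1β hcd hψ hdψ
  have h2 := sum_typeI_mul hcop h1α h1β hcd hψ₁i hdψ₁
  have hcc : (fun g => conj (ψ₁ g)) = ψ := by
    funext g
    simp [hψ₁]
  rw [hcc] at h2
  set v : G → ℂ := ∑ χ ∈ typeI α β ψ, (χ : G → ℂ) with hv
  set v' : G → ℂ := ∑ χ ∈ typeI α β ψ₁, (χ : G → ℂ) with hv'
  have hvan : ∀ g : G, g ≠ 1 → v g = 0 := by
    intro g hg
    have h3 := congrFun h1 g
    have h4 := congrFun h2 g
    simp only [Pi.mul_apply, Pi.smul_apply, smul_eq_mul] at h3 h4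
    have h5 : v g * (ψ g * conj (ψ g)) = (β : ℂ) ^ 2 * v g := by
      calc v g * (ψ g * conj (ψ g)) = (v g * ψ g) * ψ₁ g := by rw [hψ₁]; ring
        _ = (β : ℂ) * (v' g * ψ₁ g) := by rw [h3]; ring
        _ = (β : ℂ) ^ 2 * v g := by rw [h4]; ring
    have h6 : v g * (ψ g * conj (ψ g) - (β : ℂ) ^ 2) = 0 := by
      rw [mul_sub, h5]; ring
    rcases mul_eq_zero.mp h6 with h7 | h7
    · exact h7
    · exact absurd (sub_eq_zero.mp h7) (hnorm g hg)
  have hmem : χ ∈ typeI α β ψ := Finset.mem_filter.mpr ⟨Finset.mem_univ _, hdχ, h0⟩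
  have hone : IsIrrCharacter G (fun _ : G => (1 : ℂ)) := isIrrCharacter_one
  -- inner product with the trivial character
  have h3 : classInner v (fun _ : G => (1 : ℂ)) = 0 := by
    rw [hv, classInner_sum_left]
    refine Finset.sum_eq_zero fun γ hγ => ?_
    refine classInner_irr_of_ne γ.2 hone ?_
    intro h
    have hγd := (Finset.mem_filter.mp hγ).2.1
    have h4 : charDegree (γ : G → ℂ) = 1 := by rw [h]; exact charDegree_natCast (n := 1) (by simp)
    omega
  have h4 : classInner v (fun _ : G => (1 : ℂ)) = v 1 / (Fintype.card G : ℂ) := by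
    rw [classInner_def, Finset.sum_eq_single (1 : G)]
    · simp
      rw [div_eq_inv_mul]
    · intro g _ hg
      rw [hvan g hg]
      simp
    · simp
  have h5 : v 1 ≠ 0 := by
    have h6 : v 1 = ∑ γ ∈ typeI α β ψ, ((charDegree (γ : G → ℂ) : ℕ) : ℂ) := by
      rw [hv, Finset.sum_apply]
      exact Finset.sum_congr rfl fun γ _ => map_one_eq_charDegree (IsIrrCharacter.isCharacter γ.2)
    rw [h6, ← Nat.cast_sum]
    have h7 : 0 < ∑ γ ∈ typeI α β ψ, charDegree (γ : G → ℂ) :=
      Finset.sum_pos (fun γ _ => charDegree_pos_of_irr γ.2) ⟨χ, hmem⟩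
    exact_mod_cast h7.ne'
  rw [h4] at h3
  have hc : (Fintype.card G : ℂ) ≠ 0 := by
    exact_mod_cast Fintype.card_ne_zero
  exact h5 (by simpa [hc] using h3)

/-- Two irreducible characters of coprime degrees cannot both satisfy the norm condition. -/
theorem no_both_faithful {α β : ℕ} (hcop : Nat.Coprime α β) (h1α : 1 < α) (h1β : 1 < β)
    (hcd : ∀ γ : IrrCharacter G, charDegree (γ : G → ℂ) = 1 ∨ charDegree (γ : G → ℂ) = α ∨
      charDegree (γ : G → ℂ) = β)
    {χ ψ : G → ℂ} (hχ : IsIrrCharacter G χ) (hψ : IsIrrCharacter G ψ)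
    (hdχ : charDegree χ = α) (hdψ : charDegree ψ = β)
    (hnχ : ∀ g : G, g ≠ 1 → χ g * conj (χ g) ≠ (α : ℂ) ^ 2)
    (hnψ : ∀ g : G, g ≠ 1 → ψ g * conj (ψ g) ≠ (β : ℂ) ^ 2) : False := by
  rcases dich hcop h1α h1β hcd hχ hψ hdχ hdψ with hd | hd
  · exact no_type_one hcop h1α h1β hcd hψ hdψ hnψ ⟨χ, hχ⟩ hdχ hd.1
  · refine no_type_one hcop.symm h1β h1α (fun γ => by have := hcd γ; tauto) hχ hdχ hnχ ⟨ψ, hψ⟩ hdψ ?_
    intro δ hδ
    rw [mul_comm]
    exact hd.1 δ hδ

end Cfsg.Agent.Lib.Deg3
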